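import Cfsg.Agent.H571.RV.Pred

/-!
# Two elements of order 3 with the braid relation generate a {2,3}-group
-/

set_option autoImplicit false

open Subgroup

namespace Cfsg.Agent.H574.RV

open Cfsg.Agent.H988.CPi

section GFour

variable {G : Type*} [Group G] {a b : G}

theorem braid_conj (h : a * b * a = b * a * b) :
    (a * b * a) * a * (a * b * a)⁻¹ = b := by
  have h1 : (a * b * a) * a = b * (a * b * a) := by
    conv_lhs => rw [h]
    group
  rw [h1]; group

theorem braid_conj' (h : a * b * a = b * a * b) :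
    (a * b * a) * b * (a * b * a)⁻¹ = a := by
  have h1 : (a * b * a) * b = a * (a * b * a) := by
    conv_rhs => rw [h]
    group
  rw [h1]; group

/-- the square of `Δ = a b a` commutes with `a` and `b` -/
theorem braid_sq_comm (h : a * b * a = b * a * b) :
    (a * b * a) ^ 2 * a = a * (a * b * a) ^ 2 ∧ (a * b * a) ^ 2 * b = b * (a * b * a) ^ 2 := by
  have h1 := braid_conj h
  have h2 := braid_conj' h
  rw [mul_inv_eq_iff_eq_mul] at h1 h2
  constructor
  · rw [sq, mul_assoc, h1, ← mul_assoc, h2, mul_assoc]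
  · rw [sq, mul_assoc, h2, ← mul_assoc, h1, mul_assoc]

theorem mem_normalizer_of {Q : Subgroup G} {x : G} (h1 : ∀ y ∈ Q, x * y * x⁻¹ ∈ Q)
    (h2 : ∀ y ∈ Q, x⁻¹ * y * x ∈ Q) : x ∈ normalizer (Q : Set G) := by
  rw [mem_normalizer_iff]
  intro y
  constructor
  · exact h1 y
  · intro hy
    have h3 := h2 _ hy
    have h4 : x⁻¹ * (x * y * x⁻¹) * x = y := by group
    rwa [h4] at h3

theorem zpowers_normalizes {q x : G} (h : x * q * x⁻¹ = q⁻¹) :
    x ∈ normalizer ((zpowers q : Subgroup G) : Set G) := by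
  have h2 : x⁻¹ * q * x = q⁻¹ := by
    have h3 : x * q⁻¹ * x⁻¹ = q := by
      calc x * q⁻¹ * x⁻¹ = (x * q * x⁻¹)⁻¹ := by group
        _ = q := by rw [h, inv_inv]
    calc x⁻¹ * q * x = x⁻¹ * (x * q⁻¹ * x⁻¹) * x := by rw [h3]
      _ = q⁻¹ := by group
  apply mem_normalizer_of
  · rintro _ ⟨k, rfl⟩
    refine ⟨-k, ?_⟩
    change q ^ (-k) = x * q ^ k * x⁻¹
    rw [← conj_zpow, h, inv_zpow, zpow_neg]
  · rintro _ ⟨k, rfl⟩
    refine ⟨-k, ?_⟩
    change q ^ (-k) = x⁻¹ * q ^ k * x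
    have h3 : x⁻¹ * q ^ k * x = (x⁻¹ * q * x⁻¹⁻¹) ^ k := by rw [conj_zpow, inv_inv]
    rw [h3, inv_inv, h2, inv_zpow, zpow_neg]

theorem piN_zpowers {π : Set ℕ} {x : G} {n : ℕ} (hx : x ^ n = 1) (hn : PiN π n) :
    PiN π (Nat.card (zpowers x)) := by
  rw [Nat.card_zpowers]
  exact hn.of_dvd (orderOf_dvd_of_pow_eq_one hx)

/-- Two elements of order dividing 3 with the braid relation generate a `{2,3}`-group. -/
theorem piN_braid {π : Set ℕ} (h2 : 2 ∈ π) (h3 : 3 ∈ π) (ha : a ^ 3 = 1)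
    (h : a * b * a = b * a * b) : PiN π (Nat.card (closure {a, b} : Subgroup G)) := by
  set D := a * b * a with hD
  set q := a * b⁻¹ with hq
  have hDa : D * a * D⁻¹ = b := braid_conj h
  have hDb : D * b * D⁻¹ = a := braid_conj' h
  obtain ⟨hs1, hs2⟩ := braid_sq_comm h
  rw [← hD] at hs1 hs2
  have ha' : a * a = a⁻¹ := by
    rw [eq_inv_iff_mul_eq_one, ← ha, pow_succ, sq]
  have e1 : D * q * D⁻¹ = q⁻¹ := by
    have : D * q * D⁻¹ = (D * a * D⁻¹) * (D * b * D⁻¹)⁻¹ := by rw [hq]; group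
    rw [this, hDa, hDb, hq]; group
  have e2 : a * q * a⁻¹ = D⁻¹ := by
    rw [hq, hD]
    calc a * (a * b⁻¹) * a⁻¹ = (a * a) * b⁻¹ * a⁻¹ := by group
      _ = (a * b * a)⁻¹ := by rw [ha']; group
  have e3 : a * D * a⁻¹ = D * q⁻¹ := by
    rw [hq]
    have : D * (a * b⁻¹)⁻¹ = D * b * a⁻¹ := by group
    rw [this]
    have h5 : D * b = a * D := by
      rw [← hDb]; group
    rw [h5]
  have e4 : q ^ 2 = (D ^ 2)⁻¹ := by
    have h5 : q = a⁻¹ * D⁻¹ * a := by rw [← e2]; group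
    have h6 : q ^ 2 = a⁻¹ * (D ^ 2)⁻¹ * a := by
      rw [h5, sq]; group
    rw [h6]
    have h7 : (D ^ 2)⁻¹ * a = a * (D ^ 2)⁻¹ := by
      rw [inv_mul_eq_iff_eq_mul, ← mul_assoc, hs1, mul_assoc, mul_inv_cancel, mul_one]
    rw [mul_assoc, h7, ← mul_assoc, inv_mul_cancel, one_mul]
  have e5 : q ^ 4 = 1 := by
    have h5 : D * q ^ 2 * D⁻¹ = (q ^ 2)⁻¹ := by
      rw [← conj_pow, e1, inv_pow]
    rw [e4] at h5
    have h6 : D * (D ^ 2)⁻¹ * D⁻¹ = (D ^ 2)⁻¹ := by group
    rw [h6, ← e4] at h5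
    have h7 : q ^ 4 = q ^ 2 * q ^ 2 := by rw [← pow_add]
    rw [h7]
    nth_rewrite 1 [h5]
    exact inv_mul_cancel _
  have e6 : D ^ 4 = 1 := by
    have h5 : D ^ 2 = (q ^ 2)⁻¹ := by rw [e4, inv_inv]
    have h7 : D ^ 4 = (D ^ 2) ^ 2 := by rw [← pow_mul]
    rw [h7, h5, inv_pow, ← pow_mul, e5, inv_one]
  have p4 : PiN π 4 := by
    intro p hp hd
    have h5 : p ∣ 2 ^ 2 := by norm_num; exact hd
    rw [(Nat.prime_dvd_prime_iff_eq hp Nat.prime_two).1 (hp.dvd_of_dvd_pow h5)]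
    exact h2
  have p3 : PiN π 3 := by
    intro p hp hd
    rw [(Nat.prime_dvd_prime_iff_eq hp Nat.prime_three).1 hd]
    exact h3
  -- the quaternion group
  have hQ : PiN π (Nat.card (zpowers D ⊔ zpowers q : Subgroup G)) := by
    apply H571.DExt.piN_sup
    · rw [zpowers_le]
      exact zpowers_normalizes e1
    · exact piN_zpowers e6 p4
    · exact piN_zpowers e5 p4
  have hDQ : D ∈ (zpowers D ⊔ zpowers q : Subgroup G) := le_sup_left (a := zpowers D) (mem_zpowers D)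
  have hqQ : q ∈ (zpowers D ⊔ zpowers q : Subgroup G) := le_sup_right (b := zpowers q) (mem_zpowers q)
  have hconj : ∀ x : G, x * D * x⁻¹ ∈ (zpowers D ⊔ zpowers q : Subgroup G) →
      x * q * x⁻¹ ∈ (zpowers D ⊔ zpowers q : Subgroup G) →
      ∀ y ∈ (zpowers D ⊔ zpowers q : Subgroup G), x * y * x⁻¹ ∈ (zpowers D ⊔ zpowers q : Subgroup G) := by
    intro x h5 h6
    have h7 : (zpowers D ⊔ zpowers q : Subgroup G) ≤
        (zpowers D ⊔ zpowers q : Subgroup G).comap (MulAut.conj x).toMonoidHom := by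
      rw [sup_le_iff, zpowers_le, zpowers_le]
      exact ⟨h5, h6⟩
    exact fun y hy => h7 hy
  have hn : a ∈ normalizer ((zpowers D ⊔ zpowers q : Subgroup G) : Set G) := by
    apply mem_normalizer_of
    · apply hconj
      · rw [e3]; exact mul_mem hDQ (inv_mem hqQ)
      · rw [e2]; exact inv_mem hDQ
    · intro y hy
      have h5 := hconj a⁻¹ ?_ ?_ y hy
      · rwa [inv_inv] at h5
      · rw [inv_inv]
        have h6 : a⁻¹ * D * a = q⁻¹ := by
          have h7 : D = (a * q * a⁻¹)⁻¹ := by rw [e2, inv_inv]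
          rw [h7]; group
        rw [h6]; exact inv_mem hqQ
      · rw [inv_inv]
        have h6 : a⁻¹ * q * a = D⁻¹ * q⁻¹ := by
          have h7 : D = (a * q * a⁻¹)⁻¹ := by rw [e2, inv_inv]
          have h8 : a⁻¹ * D * a = q⁻¹ := by rw [h7]; group
          have h9 : D = a⁻¹ * (D * q⁻¹) * a := by rw [← e3]; group
          have h10 : a⁻¹ * q * a = D⁻¹ * (a⁻¹ * D * a) := by
            nth_rewrite 1 [h9]
            group
          rw [h10, h8]
        rw [h6]
        exact mul_mem (inv_mem hDQ) (inv_mem hqQ)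
  have hG : PiN π (Nat.card (zpowers a ⊔ (zpowers D ⊔ zpowers q) : Subgroup G)) := by
    apply H571.DExt.piN_sup
    · rw [zpowers_le]; exact hn
    · exact piN_zpowers ha p3
    · exact hQ
  refine hG.of_dvd (card_dvd_of_le ?_)
  rw [closure_le]
  rintro y (rfl | hy)
  · exact le_sup_left (a := zpowers y) (mem_zpowers y)
  · rw [Set.mem_singleton_iff] at hy
    have h5 : y = q⁻¹ * a := by rw [hy, hq]; group
    rw [h5]
    exact mul_mem (inv_mem (le_sup_right (b := (zpowers D ⊔ zpowers q : Subgroup G)) hqQ))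
      (le_sup_left (a := zpowers a) (mem_zpowers a))

end GFour

end Cfsg.Agent.H574.RV
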