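import Cfsg.Agent.H571.RV.Pred

/-!
# The number of classes of Hall subgroups is even if an outer automorphism of order two fuses classes
-/

set_option autoImplicit false

open Subgroup Cfsg

namespace Cfsg.Agent.H574.RV

open Cfsg.Agent.H988.CPi Cfsg.Agent.H571.RV

theorem card_even_of_involution {X : Type*} [Finite X] (f : X → X) (hf : ∀ x, f (f x) = x)
    (hne : ∀ x, f x ≠ x) : 2 ∣ Nat.card X := by
  classical
  have := Fintype.ofFinite X
  let e : Function.End X := f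
  have he : e ^ 2 ^ 1 = 1 := by
    funext x
    exact hf x
  have h1 := Equiv.Perm.card_fixedPoints_modEq (f := e) (p := 2) (n := 1) he
  have h2 : Fintype.card (Function.fixedPoints e) = 0 := by
    rw [Fintype.card_eq_zero_iff]
    exact ⟨fun x => hne x.1 x.2⟩
  rw [h2] at h1
  rw [Nat.card_eq_fintype_card]
  exact (Nat.modEq_zero_iff_dvd).1 h1

variable {S : Type*} [Group S]

/-- the image of a Hall subgroup under an automorphism -/
theorem hall_map [Finite S] {π : Set ℕ} {H : Subgroup S} (hH : IsPiHall π H) (α : MulAut S) :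
    IsPiHall π (H.map (α : S ≃* S).toMonoidHom) := by
  rw [isPiHall_iff] at hH ⊢
  refine ⟨hH.1.of_dvd (Subgroup.card_map_dvd _ _), ?_⟩
  refine hH.2.of_dvd (Subgroup.index_map_dvd _ ?_)
  exact α.surjective

theorem mul_mem_stab {H : Subgroup S} {α β : MulAut S}
    (h : H.map (α : S ≃* S).toMonoidHom = H.map (β : S ≃* S).toMonoidHom) : α⁻¹ * β ∈ stab H := by
  rw [mem_stab]
  have h1 : H.map (α⁻¹ * β : MulAut S).toMonoidHom =
      (H.map (β : S ≃* S).toMonoidHom).map (α⁻¹ : MulAut S).toMonoidHom := by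
    rw [Subgroup.map_map]; rfl
  have h2 : (H.map (α : S ≃* S).toMonoidHom).map (α⁻¹ : MulAut S).toMonoidHom = H := by
    rw [Subgroup.map_map]
    convert Subgroup.map_id H
    ext x
    exact MulEquiv.symm_apply_apply α x
  rw [h1, ← h, h2]

/-- the number of classes is even -/
theorem two_dvd_relIndex [Finite S] {π : Set ℕ} {𝒜 : Subgroup (MulAut S)} (hinn : inn S ≤ 𝒜)
    (htr : ∀ H K : Subgroup S, IsPiHall π H → IsPiHall π K → ∃ α ∈ 𝒜, K = H.map (α : S ≃* S).toMonoidHom)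
    {δ : MulAut S} (hδ : δ * δ ∈ inn S)
    (hno : ∀ K : Subgroup S, IsPiHall π K → ∀ s : S, MulAut.conj s * δ ∉ stab K)
    {H : Subgroup S} (hH : IsPiHall π H) : 2 ∣ ((stab H ⊓ 𝒜) ⊔ inn S).relIndex 𝒜 := by
  set N := stab H ⊔ inn S with hN
  have hmem : ∀ γ : MulAut S, γ ∈ N ↔ ∃ σ ∈ stab H, ∃ i ∈ inn S, σ * i = γ := by
    intro γ
    rw [hN, Subgroup.mem_sup_of_normal_right]
  -- transitivity
  have hsurj : ∀ γ : MulAut S, ∃ α ∈ 𝒜, α⁻¹ * γ ∈ stab H := by
    intro γ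
    obtain ⟨α, hα, h1⟩ := htr H _ hH (hall_map hH γ)
    exact ⟨α, hα, mul_mem_stab h1.symm⟩
  have e1 : ((stab H ⊓ 𝒜) ⊔ inn S).relIndex 𝒜 = Nat.card (MulAut S ⧸ N) := by
    have h1 : MulAction.IsPretransitive 𝒜 (MulAut S ⧸ N) := by
      refine (MulAction.isPretransitive_iff_base (QuotientGroup.mk (1 : MulAut S) : MulAut S ⧸ N)).2 ?_
      intro x
      obtain ⟨γ, rfl⟩ := QuotientGroup.mk_surjective x
      obtain ⟨α, hα, h2⟩ := hsurj γ
      refine ⟨⟨α, hα⟩, ?_⟩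
      change (QuotientGroup.mk (α * 1) : MulAut S ⧸ N) = QuotientGroup.mk γ
      rw [mul_one, QuotientGroup.eq]
      exact le_sup_left (a := stab H) h2
    have h2 := MulAction.index_stabilizer_of_transitive (G := 𝒜) (QuotientGroup.mk (1 : MulAut S) : MulAut S ⧸ N)
    rw [← h2]
    change (((stab H ⊓ 𝒜) ⊔ inn S).subgroupOf 𝒜).index = _
    congr 1
    ext α
    rw [mem_subgroupOf, MulAction.mem_stabilizer_iff]
    have h3 : α • (QuotientGroup.mk (1 : MulAut S) : MulAut S ⧸ N) = QuotientGroup.mk (α.1 * 1) := rfl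
    rw [h3, mul_one, eq_comm, QuotientGroup.eq, inv_one, one_mul, hmem, Subgroup.mem_sup_of_normal_right]
    constructor
    · rintro ⟨σ, hσ, i, hi, h4⟩
      exact ⟨σ, hσ.1, i, hi, h4⟩
    · rintro ⟨σ, hσ, i, hi, h4⟩
      refine ⟨σ, ⟨hσ, ?_⟩, i, hi, h4⟩
      have h5 : σ = α.1 * i⁻¹ := by rw [← h4]; group
      rw [h5]
      exact 𝒜.mul_mem α.2 (𝒜.inv_mem (hinn hi))
  rw [e1]
  apply card_even_of_involution (fun x => δ • x)
  · intro x
    obtain ⟨γ, rfl⟩ := QuotientGroup.mk_surjective x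
    change (QuotientGroup.mk (δ * (δ * γ)) : MulAut S ⧸ N) = QuotientGroup.mk γ
    rw [eq_comm, QuotientGroup.eq]
    apply le_sup_right (a := stab H)
    have h1 := (inn_normal S).conj_mem _ hδ γ⁻¹
    have h2 : γ⁻¹ * (δ * δ) * γ⁻¹⁻¹ = γ⁻¹ * (δ * (δ * γ)) := by group
    rwa [h2] at h1
  · intro x hx
    obtain ⟨γ, rfl⟩ := QuotientGroup.mk_surjective x
    have h1 : (QuotientGroup.mk γ : MulAut S ⧸ N) = QuotientGroup.mk (δ * γ) := hx.symm
    rw [QuotientGroup.eq, hmem] at h1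
    obtain ⟨σ, hσ, i, hi, h2⟩ := h1
    -- `γ⁻¹ δ γ = σ i`
    have h3 : δ = γ * σ * i * γ⁻¹ := by
      have : γ * (γ⁻¹ * (δ * γ)) * γ⁻¹ = δ := by group
      rw [← h2] at this
      rw [← this]; group
    obtain ⟨s, hs⟩ : ∃ s : S, MulAut.conj s = γ * σ * i⁻¹ * (γ * σ)⁻¹ :=
      (inn_normal S).conj_mem _ (inv_mem hi) (γ * σ)
    apply hno _ (hall_map hH γ) s
    rw [mem_stab, Subgroup.map_map]
    have h4 : MulAut.conj s * δ = γ * σ * γ⁻¹ := by
      rw [hs, h3]; group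
    rw [h4]
    have h5 : ((γ * σ * γ⁻¹ : MulAut S) : S ≃* S).toMonoidHom.comp (γ : S ≃* S).toMonoidHom =
        (γ : S ≃* S).toMonoidHom.comp (σ : S ≃* S).toMonoidHom := by
      ext x
      change (γ * σ * γ⁻¹ * γ) x = (γ * σ) x
      rw [inv_mul_cancel_right]
    rw [h5, ← Subgroup.map_map, mem_stab.1 hσ]

end Cfsg.Agent.H574.RV
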