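import Cfsg.Agent.H574.RV.Parity
import Cfsg.Agent.H832.WTwo.AutS4
import Cfsg.Agent.ClassicalGeometry.AutPSL.Auto
import Cfsg.Agent.ClassicalGeometry.PSL2Basic

/-!
# A subgroup `S_4` of `PSL_2(F)` is not normalised by an element of `PGL_2(F)` outside `PSL_2(F)`
-/

set_option autoImplicit false

open Matrix Cfsg

namespace Cfsg.Agent.H574.RV

open Cfsg.Agent.H988.CPi Cfsg.Agent.H571.RV
open Cfsg.Agent.ClassicalGeometry.AutPSL.Auto Cfsg.Agent.ClassicalGeometry.PSL2Basic
open Cfsg.Agent.ClassicalGeometry.AutPSL.Root (pr pr_surjective pr_eq_one_iff)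

variable {F : Type*} [Field F]

/-- a matrix which commutes with two non-commuting matrices is a scalar -/
theorem scalar_of_comm {x a b : Matrix (Fin 2) (Fin 2) F} (ha : x * a = a * x) (hb : x * b = b * x)
    (hab : a * b ≠ b * a) : x 0 1 = 0 ∧ x 1 0 = 0 ∧ x 0 0 = x 1 1 := by
  have ext2 : ∀ M N : Matrix (Fin 2) (Fin 2) F, M = N ↔
      M 0 0 = N 0 0 ∧ M 0 1 = N 0 1 ∧ M 1 0 = N 1 0 ∧ M 1 1 = N 1 1 := by
    intro M N
    constructor
    · rintro rfl; exact ⟨rfl, rfl, rfl, rfl⟩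
    · rintro ⟨h1, h2, h3, h4⟩
      ext i j
      fin_cases i <;> fin_cases j
      · exact h1
      · exact h2
      · exact h3
      · exact h4
  rw [ext2] at ha hb
  have hc : ¬ (a 0 1 * b 1 0 = a 1 0 * b 0 1 ∧ a 1 0 * (b 0 0 - b 1 1) = (a 0 0 - a 1 1) * b 1 0 ∧
      (a 0 0 - a 1 1) * b 0 1 = a 0 1 * (b 0 0 - b 1 1)) := by
    rintro ⟨h1, h2, h3⟩
    apply hab
    rw [ext2]
    simp only [Matrix.mul_apply, Fin.sum_univ_two]
    refine ⟨by linear_combination h1, by linear_combination h3, by linear_combination h2,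
      by linear_combination -h1⟩
  simp only [Matrix.mul_apply, Fin.sum_univ_two] at ha hb
  obtain ⟨ha0, ha1, ha2, -⟩ := ha
  obtain ⟨hb0, hb1, hb2, -⟩ := hb
  set X0 := x 0 0 - x 1 1 with hX0
  set X1 := x 0 1
  set X2 := x 1 0
  set A0 := a 0 0 - a 1 1 with hA0
  set A1 := a 0 1
  set A2 := a 1 0
  set B0 := b 0 0 - b 1 1 with hB0
  set B1 := b 0 1
  set B2 := b 1 0
  have r12 : X1 * A2 - X2 * A1 = 0 := by linear_combination ha0
  have r01 : X0 * A1 - X1 * A0 = 0 := by rw [hX0, hA0]; linear_combination ha1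
  have r20 : X2 * A0 - X0 * A2 = 0 := by rw [hX0, hA0]; linear_combination ha2
  have s12 : X1 * B2 - X2 * B1 = 0 := by linear_combination hb0
  have s01 : X0 * B1 - X1 * B0 = 0 := by rw [hX0, hB0]; linear_combination hb1
  have s20 : X2 * B0 - X0 * B2 = 0 := by rw [hX0, hB0]; linear_combination hb2
  have k0 : X0 = 0 := by
    by_contra h
    apply hc
    refine ⟨mul_left_cancel₀ h ?_, mul_left_cancel₀ h ?_, mul_left_cancel₀ h ?_⟩
    · linear_combination B2 * r01 + B1 * r20 + A0 * s12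
    · linear_combination -B0 * r20 + A0 * s20
    · linear_combination A0 * s01 - B0 * r01
  have k1 : X1 = 0 := by
    by_contra h
    apply hc
    refine ⟨mul_left_cancel₀ h ?_, mul_left_cancel₀ h ?_, mul_left_cancel₀ h ?_⟩
    · linear_combination A1 * s12 - B1 * r12
    · linear_combination B0 * r12 + B2 * r01 + A1 * s20
    · linear_combination -B1 * r01 + A1 * s01
  have k2 : X2 = 0 := by
    by_contra h
    apply hc
    refine ⟨mul_left_cancel₀ h ?_, mul_left_cancel₀ h ?_, mul_left_cancel₀ h ?_⟩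
    · linear_combination -B2 * r12 + A2 * s12
    · linear_combination A2 * s20 - B2 * r20
    · linear_combination B1 * r20 + B0 * r12 + A2 * s01
  exact ⟨k1, k2, by linear_combination k0⟩

theorem conj_pr (c : Matrix.SpecialLinearGroup (Fin 2) F) :
    (MulAut.conj (pr c) : MulAut (Matrix.ProjectiveSpecialLinearGroup (Fin 2) F)) =
      lift (cj (Matrix.SpecialLinearGroup.toGL c)) := by
  apply MulEquiv.ext
  intro y
  obtain ⟨y, rfl⟩ := pr_surjective y
  rw [lift_pr, MulAut.conj_apply, ← map_inv, ← map_mul, ← map_mul]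
  congr 1

theorem perm_facts : ∃ y1 y2 : Equiv.Perm (Fin 4), y1 ^ 3 = 1 ∧ y2 ^ 3 = 1 ∧ y1 * y2 ≠ y2 * y1 := by
  refine ⟨c[0, 1, 2], c[1, 2, 3], ?_, ?_, ?_⟩ <;> decide

/-- A subgroup `S_4` of `PSL_2(F)` is not normalised by an element of `PGL_2(F)` outside `PSL_2(F)`. -/
theorem not_stab_of_S4 (h2 : (2 : F) ≠ 0) {x0 : GL (Fin 2) F}
    (hx0 : ¬ IsSquare (x0 : Matrix (Fin 2) (Fin 2) F).det)
    {K : Subgroup (Matrix.ProjectiveSpecialLinearGroup (Fin 2) F)} (e : K ≃* Equiv.Perm (Fin 4))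
    (s : Matrix.ProjectiveSpecialLinearGroup (Fin 2) F) : MulAut.conj s * lift (cj x0) ∉ stab K := by
  intro hs
  obtain ⟨c, rfl⟩ := pr_surjective s
  rw [conj_pr, ← map_mul, ← map_mul] at hs
  set x := Matrix.SpecialLinearGroup.toGL c * x0 with hx
  rw [mem_stab] at hs
  let φ : K ≃* K := ((lift (cj x) : MulAut _).subgroupMap K).trans (MulEquiv.subgroupCongr hs)
  have hφ : ∀ k : K, ((φ k : K) : Matrix.ProjectiveSpecialLinearGroup (Fin 2) F) = lift (cj x) k := fun k => rfl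
  obtain ⟨t, ht⟩ := Cfsg.Agent.H832.WTwo.AutS4.inner ((e.symm.trans φ).trans e)
  obtain ⟨c0, hc0⟩ := pr_surjective (e.symm t : Matrix.ProjectiveSpecialLinearGroup (Fin 2) F)
  set x1 := (Matrix.SpecialLinearGroup.toGL c0)⁻¹ * x with hx1
  have hfix : ∀ k : K, lift (cj x1) (k : Matrix.ProjectiveSpecialLinearGroup (Fin 2) F) = k := by
    intro k
    have h1 : φ k = e.symm t * k * (e.symm t)⁻¹ := by
      apply e.injective
      have h3 := ht (e k)
      change e (φ (e.symm (e k))) = _ at h3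
      rw [e.symm_apply_apply] at h3
      rw [h3, map_mul, map_mul, map_inv, e.apply_symm_apply]
    have h3 := congrArg Subtype.val h1
    rw [hφ] at h3
    have h4 : lift (cj x1) = (MulAut.conj (pr c0))⁻¹ * lift (cj x) := by
      rw [conj_pr, ← map_inv, ← map_inv, ← map_mul, ← map_mul]
    rw [h4, MulAut.mul_apply, h3, ← map_inv, MulAut.conj_apply, hc0]
    change _ * ((e.symm t : Matrix.ProjectiveSpecialLinearGroup (Fin 2) F) * k *
      (e.symm t : Matrix.ProjectiveSpecialLinearGroup (Fin 2) F)⁻¹) * _ = _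
    group
  have hcomm : ∀ y : Equiv.Perm (Fin 4), y ^ 3 = 1 → ∀ d : Matrix.SpecialLinearGroup (Fin 2) F,
      pr d = (e.symm y : Matrix.ProjectiveSpecialLinearGroup (Fin 2) F) →
      (x1 : Matrix (Fin 2) (Fin 2) F) * d.1 = d.1 * (x1 : Matrix (Fin 2) (Fin 2) F) := by
    intro y hy d hd
    have h1 : pr (cj x1 d) = pr d := by
      rw [← lift_pr, hd]
      exact hfix _
    have h3 : pr (d ^ 3) = 1 := by
      rw [map_pow, hd, ← Subgroup.coe_pow, ← map_pow, hy, map_one, Subgroup.coe_one]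
    rw [pr_eq_one_iff, mem_center_SL2_iff] at h3
    have h4 : cj x1 d * d⁻¹ = 1 ∨ cj x1 d * d⁻¹ = -1 := by
      rw [← mem_center_SL2_iff, ← pr_eq_one_iff, map_mul, h1, ← map_mul, mul_inv_cancel, map_one]
    have h5 : cj x1 d = d := by
      rcases h4 with h4 | h4
      · rwa [mul_inv_eq_one] at h4
      · exfalso
        rw [mul_inv_eq_iff_eq_mul, neg_one_mul] at h4
        have h6 : cj x1 (d ^ 3) = d ^ 3 := by
          rcases h3 with h3 | h3
          · rw [h3, map_one]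
          · rw [h3]
            apply Subtype.ext
            rw [coe_cj]
            change (x1 : Matrix (Fin 2) (Fin 2) F) * (-1) * ((x1⁻¹ : GL (Fin 2) F) : Matrix (Fin 2) (Fin 2) F) = -1
            rw [mul_neg, mul_one, neg_mul, ← Units.val_mul, mul_inv_cancel, Units.val_one]
        rw [map_pow, h4, Odd.neg_pow (by decide)] at h6
        apply neg_one_ne_one_SL2 h2
        have h7 : (-1 : Matrix.SpecialLinearGroup (Fin 2) F) * d ^ 3 = 1 * d ^ 3 := by
          rw [neg_one_mul, one_mul, h6]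
        exact mul_right_cancel h7
    have h6 := congrArg Subtype.val h5
    change (x1 : Matrix (Fin 2) (Fin 2) F) * d.1 * ((x1⁻¹ : GL (Fin 2) F) : Matrix (Fin 2) (Fin 2) F) = d.1 at h6
    calc (x1 : Matrix (Fin 2) (Fin 2) F) * d.1 = (x1 : Matrix (Fin 2) (Fin 2) F) * d.1 *
          (((x1⁻¹ : GL (Fin 2) F) : Matrix (Fin 2) (Fin 2) F) * (x1 : Matrix (Fin 2) (Fin 2) F)) := by
          rw [← Units.val_mul, inv_mul_cancel, Units.val_one, mul_one]
      _ = d.1 * (x1 : Matrix (Fin 2) (Fin 2) F) := by rw [← mul_assoc, h6]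
  obtain ⟨y1, y2, hy1, hy2, hy12⟩ := perm_facts
  obtain ⟨d1, hd1⟩ := pr_surjective (e.symm y1 : Matrix.ProjectiveSpecialLinearGroup (Fin 2) F)
  obtain ⟨d2, hd2⟩ := pr_surjective (e.symm y2 : Matrix.ProjectiveSpecialLinearGroup (Fin 2) F)
  obtain ⟨e1, e2, e3⟩ := scalar_of_comm (hcomm y1 hy1 d1 hd1) (hcomm y2 hy2 d2 hd2) (by
    intro h
    apply hy12
    apply e.symm.injective
    apply Subtype.ext
    rw [map_mul, map_mul, Subgroup.coe_mul, Subgroup.coe_mul, ← hd1, ← hd2, ← map_mul, ← map_mul]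
    congr 1
    exact Subtype.ext h)
  apply hx0
  have h3 : (x1 : Matrix (Fin 2) (Fin 2) F).det = (x0 : Matrix (Fin 2) (Fin 2) F).det := by
    rw [hx1, hx]
    have h4 : (Matrix.SpecialLinearGroup.toGL c0)⁻¹ = Matrix.SpecialLinearGroup.toGL c0⁻¹ := (map_inv _ _).symm
    rw [h4, Units.val_mul, Units.val_mul, det_mul, det_mul]
    change (c0⁻¹).1.det * (c.1.det * _) = _
    rw [(c0⁻¹).2, c.2, one_mul, one_mul]
  rw [← h3]
  refine ⟨x1 0 0, ?_⟩
  rw [Matrix.det_fin_two, e1, e2, ← e3]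
  ring

end Cfsg.Agent.H574.RV
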