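import Cfsg.Agent.H574.RV.Quat
import Cfsg.Agent.ClassicalGeometry.PSL2Solvable
import Cfsg.Agent.ClassicalGeometry.Universal
import Cfsg.Agent.ClassicalGeometry.AutPSL.Auto

/-!
# Subgroups `A_4` and `S_3` of `PSL_2(q)`; `p'`-subgroups of the Borel subgroup
-/

set_option autoImplicit false

open Matrix Cfsg

namespace Cfsg.Agent.H574.RV

open Cfsg.Agent.H988.CPi Cfsg.Agent.H571.RV
open Cfsg.Agent.ClassicalGeometry.PSL2Basic Cfsg.Agent.ClassicalGeometry.PSL2Solvable
open Cfsg.Agent.LieClassical.SLTwoUnipotent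
open Cfsg.Agent.ClassicalGeometry.AutPSL.Root (pr pr_surjective pr_eq_one_iff exists_smul_of_pr_eq)

variable {F : Type*} [Field F]

/-- two elements of order 3 in `PSL_2(F)` which generate `A_4` -/
theorem exists_braid [Finite F] (h2 : (2 : F) ≠ 0) :
    ∃ x y : Matrix.ProjectiveSpecialLinearGroup (Fin 2) F, x ^ 3 = 1 ∧ y ^ 3 = 1 ∧ x * y * x = y * x * y ∧
      x * y ≠ y * x := by
  obtain ⟨x, y, h⟩ : ∃ x y : F, x ^ 2 + y ^ 2 = -1 := by
    obtain ⟨x, y, h⟩ := Cfsg.Agent.ClassicalGeometry.Universal.exists_sq_add_sq h2 (one_ne_zero (α := F))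
      (one_ne_zero (α := F)) (-1)
    exact ⟨x, y, by linear_combination h⟩
  have h' : (-x) ^ 2 + (-y) ^ 2 = -1 := by rw [neg_sq, neg_sq]; exact h
  have dn : ∀ M : Matrix (Fin 2) (Fin 2) F, M.det = 1 → (-M).det = 1 := by
    intro M hM
    rw [Matrix.det_neg, hM, Fintype.card_fin]
    norm_num
  let a : SpecialLinearGroup (Fin 2) F := ⟨-qm x y, dn _ (qm_det h2 h)⟩
  let b : SpecialLinearGroup (Fin 2) F := ⟨-qm (-x) (-y), dn _ (qm_det h2 h')⟩
  have cube : ∀ M : Matrix (Fin 2) (Fin 2) F, M * M - M + 1 = 0 → -M * -M * -M = 1 := by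
    intro M hM
    have e0 : M * M = M - 1 := by
      have : M * M = (M * M - M + 1) + (M - 1) := by noncomm_ring
      rw [this, hM, zero_add]
    rw [neg_mul_neg, mul_neg, e0, sub_mul, one_mul, e0]
    noncomm_ring
  have ha3 : a ^ 3 = 1 := by
    apply Subtype.ext
    have h1 : (a ^ 3).1 = -qm x y * -qm x y * -qm x y := by rw [pow_succ, sq]; rfl
    rw [h1, cube _ (qm_rel h2 h)]
    rfl
  have hb3 : b ^ 3 = 1 := by
    apply Subtype.ext
    have h1 : (b ^ 3).1 = -qm (-x) (-y) * -qm (-x) (-y) * -qm (-x) (-y) := by rw [pow_succ, sq]; rfl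
    rw [h1, cube _ (qm_rel h2 h')]
    rfl
  have hab : (a * b).1 = sm x y := by
    have h1 : (a * b).1 = -qm x y * -qm (-x) (-y) := rfl
    rw [h1, neg_mul_neg, qm_mul h2 h]
  have hbr : a * b * a = b * a * b := by
    apply Subtype.ext
    have h1 : (a * b * a).1 = (a * b).1 * -qm x y := rfl
    have h3 : (b * a * b).1 = -qm (-x) (-y) * (a * b).1 := by rw [mul_assoc]; rfl
    rw [h1, h3, hab, mul_neg, neg_mul, sm_comm h2]
  refine ⟨pr a, pr b, by rw [← map_pow, ha3, map_one], by rw [← map_pow, hb3, map_one],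
    by rw [← map_mul, ← map_mul, ← map_mul, ← map_mul, hbr], ?_⟩
  intro hc
  have hbr' : pr a * pr b * pr a = pr b * pr a * pr b := by
    rw [← map_mul, ← map_mul, ← map_mul, ← map_mul, hbr]
  have heq : pr a = pr b := by
    rw [hc] at hbr'
    have h1 : pr b * pr a * pr b = pr b * (pr b * pr a) := by rw [mul_assoc, hc]
    rw [h1, mul_assoc] at hbr'
    have h3 := mul_left_cancel hbr'
    exact mul_right_cancel h3
  obtain ⟨c, hc⟩ := exists_smul_of_pr_eq heq
  change -qm (-x) (-y) = c • -qm x y at hc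
  have e00 := congrFun (congrFun hc 0) 0
  have e01 := congrFun (congrFun hc 0) 1
  have e10 := congrFun (congrFun hc 1) 0
  have e11 := congrFun (congrFun hc 1) 1
  change -((1 + -x - -y) / 2) = c * -((1 + x - y) / 2) at e00
  change -((-1 + -y + -x) / 2) = c * -((-1 + y + x) / 2) at e01
  change -((1 + -y + -x) / 2) = c * -((1 + y + x) / 2) at e10
  change -((1 - -x + -y) / 2) = c * -((1 - x + y) / 2) at e11
  have hc1 : c = 1 := by
    field_simp at e00 e11
    have : (2 : F) * (c - 1) = 0 := by linear_combination e00 + e11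
    rcases mul_eq_zero.1 this with h3 | h3
    · exact absurd h3 h2
    · linear_combination h3
  subst hc1
  field_simp at e00 e01
  have f1 : (2 : F) * (x - y) = 0 := by linear_combination e00
  have f2 : (2 : F) * (x + y) = 0 := by linear_combination e01
  have g1 := (mul_eq_zero.1 f1).resolve_left h2
  have g2 := (mul_eq_zero.1 f2).resolve_left h2
  have g3 : (2 : F) * x = 0 := by linear_combination g1 + g2
  have g4 := (mul_eq_zero.1 g3).resolve_left h2
  rw [g4] at g2 h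
  rw [zero_add] at g2
  rw [g2] at h
  apply one_ne_zero (α := F)
  linear_combination h

/-- an element of order 3 inverted by an involution -/
theorem exists_inverted [Finite F] (h2 : (2 : F) ≠ 0) (h3 : (3 : F) ≠ 0) :
    ∃ x w : Matrix.ProjectiveSpecialLinearGroup (Fin 2) F, x ^ 3 = 1 ∧ x ≠ 1 ∧ w ^ 2 = 1 ∧ w * x * w⁻¹ = x⁻¹ := by
  obtain ⟨r, z, h⟩ := Cfsg.Agent.ClassicalGeometry.Universal.exists_sq_add_sq h2 (one_ne_zero (α := F)) h3 (-4)
  let x : F := (r - z) / 2
  have hx : 2 * x = r - z := by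
    change 2 * ((r - z) / 2) = r - z
    field_simp
  have hq : x ^ 2 + x * z + z ^ 2 = -1 := by
    have h4 : (4 : F) ≠ 0 := by
      have : (4 : F) = 2 * 2 := by norm_num
      rw [this]; exact mul_ne_zero h2 h2
    apply mul_left_cancel₀ h4
    have hr : r = 2 * x + z := by linear_combination -hx
    rw [hr] at h
    linear_combination h
  let t : SpecialLinearGroup (Fin 2) F := ⟨!![0, -1; 1, 1], by rw [det_fin_two_of]; ring⟩
  let w : SpecialLinearGroup (Fin 2) F := ⟨!![x, x + z; z, -x], by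
    rw [det_fin_two_of]; linear_combination -hq⟩
  have hw : w * t * w = -t⁻¹ := by
    apply Subtype.ext
    have e1 : (w * t * w).1 = !![x, x + z; z, -x] * !![0, -1; 1, 1] * !![x, x + z; z, -x] := rfl
    have e2 : (-t⁻¹).1 = -(!![0, -1; 1, 1] : Matrix (Fin 2) (Fin 2) F).adjugate := rfl
    rw [e1, e2, Matrix.adjugate_fin_two]
    ext i j
    fin_cases i <;> fin_cases j <;> simp <;>
      first | ring1 | linear_combination hq | linear_combination -hq
  have ht : t ^ 3 = -1 := by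
    apply Subtype.ext
    have e1 : (t ^ 3).1 = !![0, -1; 1, 1] * !![0, -1; 1, 1] * !![0, -1; 1, 1] := by
      rw [pow_succ, sq]; rfl
    have e2 : (-1 : SpecialLinearGroup (Fin 2) F).1 = -1 := rfl
    rw [e1, e2]
    ext i j
    fin_cases i <;> fin_cases j <;> simp
  have hw2 : w ^ 2 = -1 := by
    apply Subtype.ext
    have e1 : (w ^ 2).1 = !![x, x + z; z, -x] * !![x, x + z; z, -x] := by
      rw [sq]; rfl
    have e2 : (-1 : SpecialLinearGroup (Fin 2) F).1 = -1 := rfl
    rw [e1, e2]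
    ext i j
    fin_cases i <;> fin_cases j <;> simp <;>
      first | ring1 | linear_combination hq
  have hpr : pr (-1 : SpecialLinearGroup (Fin 2) F) = 1 := by
    rw [pr_eq_one_iff, mem_center_SL2_iff]
    exact Or.inr rfl
  have hprn : ∀ g : SpecialLinearGroup (Fin 2) F, pr (-g) = pr g := by
    intro g
    rw [← neg_one_mul, map_mul, hpr, one_mul]
  have hw2' : pr w ^ 2 = 1 := by rw [← map_pow, hw2, hpr]
  refine ⟨pr t, pr w, by rw [← map_pow, ht, hpr], ?_, hw2', ?_⟩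
  · intro h1
    rw [pr_eq_one_iff, mem_center_SL2_iff] at h1
    have e1 : t.1 1 0 = 1 := rfl
    rcases h1 with h1 | h1
    · rw [h1] at e1
      exact zero_ne_one e1
    · rw [h1] at e1
      have e2 : (-1 : SpecialLinearGroup (Fin 2) F).1 1 0 = -0 := rfl
      rw [e2, neg_zero] at e1
      exact zero_ne_one e1
  · have h4 : (pr w)⁻¹ = pr w := by
      rw [inv_eq_iff_mul_eq_one, ← sq, hw2']
    rw [h4, ← map_mul, ← map_mul, hw, hprn, map_inv]

/-- a `p'`-subgroup of the normaliser of a Sylow `p`-subgroup is commutative -/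
theorem comm_of_le_borel [Finite F] (p : ℕ) [Fact p.Prime] [CharP F p]
    (P : Sylow p (Matrix.ProjectiveSpecialLinearGroup (Fin 2) F))
    (K : Subgroup (Matrix.ProjectiveSpecialLinearGroup (Fin 2) F)) (hK : K ≤ Subgroup.normalizer
      ((P : Subgroup (Matrix.ProjectiveSpecialLinearGroup (Fin 2) F)) :
        Set (Matrix.ProjectiveSpecialLinearGroup (Fin 2) F))) (hp : ¬ p ∣ Nat.card K)
    {k l : Matrix.ProjectiveSpecialLinearGroup (Fin 2) F} (hk : k ∈ K) (hl : l ∈ K) : k * l = l * k := by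
  have := Fintype.ofFinite F
  obtain ⟨g, hg⟩ := exists_le_map_borel p P
  obtain ⟨k', ⟨c, hc, rfl⟩, hkc⟩ := hg (hK hk)
  obtain ⟨l', ⟨d, hd, rfl⟩, hld⟩ := hg (hK hl)
  change g * pr c * g⁻¹ = k at hkc
  change g * pr d * g⁻¹ = l at hld
  have hm : ∀ a b : SpecialLinearGroup (Fin 2) F, b 1 0 = 0 → (a * b) 0 0 = a 0 0 * b 0 0 := by
    intro a b hb
    have h1 : (a * b) 0 0 = (a.1 * b.1) 0 0 := rfl
    rw [h1, Matrix.mul_apply, Fin.sum_univ_two]
    change _ + a.1 0 1 * b 1 0 = _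
    rw [hb, mul_zero, add_zero]
  have hi : ∀ a : SpecialLinearGroup (Fin 2) F, a ∈ borel F → a 0 0 * a⁻¹ 0 0 = 1 := by
    intro a ha
    have h1 := hm a a⁻¹ (mem_borel_iff.1 (inv_mem ha))
    rw [mul_inv_cancel] at h1
    rw [← h1]; rfl
  set e := c * d * c⁻¹ * d⁻¹ with he
  have heb : e ∈ borel F := mul_mem (mul_mem (mul_mem hc hd) (inv_mem hc)) (inv_mem hd)
  have he0 : e 0 0 = 1 := by
    rw [he, hm _ _ (mem_borel_iff.1 (inv_mem hd)), hm _ _ (mem_borel_iff.1 (inv_mem hc)),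
      hm _ _ (mem_borel_iff.1 hd)]
    have h1 := hi c hc
    have h2 := hi d hd
    calc c 0 0 * d 0 0 * c⁻¹ 0 0 * d⁻¹ 0 0 = (c 0 0 * c⁻¹ 0 0) * (d 0 0 * d⁻¹ 0 0) := by ring
      _ = 1 := by rw [h1, h2, mul_one]
  have he1 : e 1 0 = 0 := mem_borel_iff.1 heb
  have he11 : e 1 1 = 1 := by
    have h1 := e.2
    rw [det_fin_two] at h1
    change e 0 0 * e 1 1 - e 0 1 * e 1 0 = 1 at h1
    rw [he0, he1] at h1
    linear_combination h1
  have heu : e ∈ upperUnipSL F := mem_upperUnipSL_iff.mpr ⟨he0, he1, he11⟩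
  have hpg : IsPGroup p (upperUnipSL F) := by
    have h1 := (upperUnipSylowSL F p).2
    rwa [coe_upperUnipSylowSL] at h1
  obtain ⟨r, hr⟩ := hpg ⟨e, heu⟩
  have hr' : e ^ p ^ r = 1 := congrArg Subtype.val hr
  have hkl : k * l * k⁻¹ * l⁻¹ = g * pr e * g⁻¹ := by
    rw [← hkc, ← hld, he, map_mul, map_mul, map_mul, map_inv, map_inv]
    group
  have h1 : (k * l * k⁻¹ * l⁻¹) ^ p ^ r = 1 := by
    rw [hkl, conj_pow, ← map_pow, hr', map_one, mul_one, mul_inv_cancel]
  have h2 : k * l * k⁻¹ * l⁻¹ ∈ K := mul_mem (mul_mem (mul_mem hk hl) (inv_mem hk)) (inv_mem hl)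
  have h3 : orderOf (k * l * k⁻¹ * l⁻¹) ∣ Nat.card K := by
    have := orderOf_dvd_natCard (⟨_, h2⟩ : K)
    rwa [Subgroup.orderOf_mk] at this
  have h4 : orderOf (k * l * k⁻¹ * l⁻¹) ∣ p ^ r := orderOf_dvd_of_pow_eq_one h1
  have h5 : orderOf (k * l * k⁻¹ * l⁻¹) = 1 := by
    obtain ⟨i, -, hi⟩ := (Nat.dvd_prime_pow Fact.out).1 h4
    rcases Nat.eq_zero_or_pos i with h0 | h0
    · rw [hi, h0, pow_zero]
    · exfalso
      apply hp
      rw [hi] at h3
      exact (dvd_pow_self p h0.ne').trans h3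
  rw [orderOf_eq_one_iff] at h5
  rwa [mul_inv_eq_one, mul_inv_eq_iff_eq_mul] at h5

/-- elements of order 3 of a dihedral group commute -/
theorem dihedral_comm {k : ℕ} {x y : DihedralGroup k} (hx : x ^ 3 = 1) (hy : y ^ 3 = 1) : x * y = y * x := by
  have key : ∀ x : DihedralGroup k, x ^ 3 = 1 → ∃ i, x = DihedralGroup.r i := by
    rintro (i | i) h
    · exact ⟨i, rfl⟩
    · exfalso
      rw [pow_succ, sq, DihedralGroup.sr_mul_sr, DihedralGroup.r_mul_sr] at h
      rw [DihedralGroup.one_def] at h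
      cases h
  obtain ⟨i, rfl⟩ := key x hx
  obtain ⟨j, rfl⟩ := key y hy
  rw [DihedralGroup.r_mul_r, DihedralGroup.r_mul_r, add_comm]

end Cfsg.Agent.H574.RV
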