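import Mathlib
import Cfsg.Agent.H574.RV.GFour

/-!
# The group of order 24 in `SL_2(F)`
-/

set_option autoImplicit false

open Matrix

namespace Cfsg.Agent.H574.RV

open Cfsg.Agent.H988.CPi

variable {F : Type*} [Field F]

/-- the matrix `(1 + I + J + IJ) / 2` with `I = (0 -1; 1 0)`, `J = (x y; y -x)` -/
def qm (x y : F) : Matrix (Fin 2) (Fin 2) F :=
  !![(1 + x - y) / 2, (-1 + y + x) / 2; (1 + y + x) / 2, (1 - x + y) / 2]

/-- the matrix `(1 + I + J - IJ) / 2` -/
def sm (x y : F) : Matrix (Fin 2) (Fin 2) F :=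
  !![(1 + x + y) / 2, (-1 + y - x) / 2; (1 + y - x) / 2, (1 - x - y) / 2]

theorem qm_det {x y : F} (h2 : (2 : F) ≠ 0) (h : x ^ 2 + y ^ 2 = -1) : (qm x y).det = 1 := by
  rw [qm, Matrix.det_fin_two_of]
  field_simp
  linear_combination -2 * h

theorem qm_rel {x y : F} (h2 : (2 : F) ≠ 0) (h : x ^ 2 + y ^ 2 = -1) :
    qm x y * qm x y - qm x y + 1 = 0 := by
  rw [qm]
  ext i j
  fin_cases i <;> fin_cases j <;> simp <;> field_simp <;>
    first | ring1 | linear_combination (2 : F) * h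

theorem sm_rel {x y : F} (h2 : (2 : F) ≠ 0) (h : x ^ 2 + y ^ 2 = -1) :
    sm x y * sm x y - sm x y + 1 = 0 := by
  rw [sm]
  ext i j
  fin_cases i <;> fin_cases j <;> simp <;> field_simp <;>
    first | ring1 | linear_combination (2 : F) * h

theorem qm_mul {x y : F} (h2 : (2 : F) ≠ 0) (h : x ^ 2 + y ^ 2 = -1) :
    qm x y * qm (-x) (-y) = sm x y := by
  rw [qm, qm, sm]
  ext i j
  fin_cases i <;> fin_cases j <;> simp <;> field_simp <;>
    first | ring1 | linear_combination (2 : F) * h | linear_combination (-2 : F) * h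

theorem sm_comm {x y : F} (h2 : (2 : F) ≠ 0) :
    sm x y * qm x y = qm (-x) (-y) * sm x y := by
  rw [qm, qm, sm]
  ext i j
  fin_cases i <;> fin_cases j <;> simp <;> field_simp <;> ring1

/-- The data used for the symplectic groups: `t = -a`, `t' = -b` of order 6 in a `{2,3}`-subgroup `K` of `SL_2(F)`,
without a common eigenvector. -/
theorem exists_quat [Finite F] (h2 : (2 : F) ≠ 0) {π : Set ℕ} (p2 : 2 ∈ π) (p3 : 3 ∈ π) :
    ∃ (K : Subgroup (SpecialLinearGroup (Fin 2) F)) (t t' : SpecialLinearGroup (Fin 2) F), PiN π (Nat.card K) ∧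
      t ∈ K ∧ t' ∈ K ∧
      (t : Matrix (Fin 2) (Fin 2) F) * (t : Matrix (Fin 2) (Fin 2) F) - t + 1 = 0 ∧
      (t' : Matrix (Fin 2) (Fin 2) F) * (t' : Matrix (Fin 2) (Fin 2) F) - t' + 1 = 0 ∧
      ∀ a b : F, a * (t 1 0 * a + t 1 1 * b) - b * (t 0 0 * a + t 0 1 * b) = 0 →
      a * (t' 1 0 * a + t' 1 1 * b) - b * (t' 0 0 * a + t' 0 1 * b) = 0 → a = 0 ∧ b = 0 := by
  obtain ⟨x, y, h⟩ : ∃ x y : F, x ^ 2 + y ^ 2 = -1 := by
    obtain ⟨p, hp⟩ := CharP.exists F
    have hpp : Fact p.Prime := ⟨CharP.char_is_prime F p⟩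
    obtain ⟨a, b, -, -, h⟩ := Nat.sq_add_sq_zmodEq p (-1)
    refine ⟨a, b, ?_⟩
    have h1 : (((a : ℤ) ^ 2 + (b : ℤ) ^ 2 : ℤ) : F) = ((-1 : ℤ) : F) :=
      (CharP.intCast_eq_intCast F p).2 h
    push_cast at h1
    exact h1
  have h' : (-x) ^ 2 + (-y) ^ 2 = -1 := by rw [neg_sq, neg_sq]; exact h
  have dn : ∀ M : Matrix (Fin 2) (Fin 2) F, M.det = 1 → (-M).det = 1 := by
    intro M hM
    rw [Matrix.det_neg, hM, Fintype.card_fin]
    norm_num
  let a : SpecialLinearGroup (Fin 2) F := ⟨-qm x y, dn _ (qm_det h2 h)⟩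
  let b : SpecialLinearGroup (Fin 2) F := ⟨-qm (-x) (-y), dn _ (qm_det h2 h')⟩
  let t : SpecialLinearGroup (Fin 2) F := ⟨qm x y, qm_det h2 h⟩
  let t' : SpecialLinearGroup (Fin 2) F := ⟨qm (-x) (-y), qm_det h2 h'⟩
  have cube : ∀ M : Matrix (Fin 2) (Fin 2) F, M * M - M + 1 = 0 → M * M * M = -1 := by
    intro M hM
    have e0 : M * M = M - 1 := by
      have : M * M = (M * M - M + 1) + (M - 1) := by noncomm_ring
      rw [this, hM, zero_add]
    rw [e0, sub_mul, one_mul, e0]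
    noncomm_ring
  have ha3 : a ^ 3 = 1 := by
    apply Subtype.ext
    have h1 : (a ^ 3).1 = -qm x y * -qm x y * -qm x y := by rw [pow_succ, sq]; rfl
    have h3 : -qm x y * -qm x y * -qm x y = -(qm x y * qm x y * qm x y) := by noncomm_ring
    rw [h1, h3, cube _ (qm_rel h2 h), neg_neg]
    rfl
  have hab : (a * b).1 = sm x y := by
    have h1 : (a * b).1 = -qm x y * -qm (-x) (-y) := rfl
    rw [h1, neg_mul_neg, qm_mul h2 h]
  have hab3 : ((a * b) ^ 3).1 = -1 := by
    have h1 : ((a * b) ^ 3).1 = (a * b).1 * (a * b).1 * (a * b).1 := by rw [pow_succ, sq]; rfl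
    rw [h1, hab, cube _ (sm_rel h2 h)]
  have hbr : a * b * a = b * a * b := by
    apply Subtype.ext
    have h1 : (a * b * a).1 = (a * b).1 * -qm x y := rfl
    have h3 : (b * a * b).1 = -qm (-x) (-y) * (a * b).1 := by rw [mul_assoc]; rfl
    rw [h1, h3, hab, mul_neg, neg_mul, sm_comm h2]
  have ht : t = (a * b) ^ 3 * a := by
    apply Subtype.ext
    have h1 : ((a * b) ^ 3 * a).1 = ((a * b) ^ 3).1 * -qm x y := rfl
    rw [h1, hab3, neg_mul_neg, one_mul]
  have ht' : t' = (a * b) ^ 3 * b := by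
    apply Subtype.ext
    have h1 : ((a * b) ^ 3 * b).1 = ((a * b) ^ 3).1 * -qm (-x) (-y) := rfl
    rw [h1, hab3, neg_mul_neg, one_mul]
  have haK : a ∈ Subgroup.closure {a, b} := Subgroup.subset_closure (Set.mem_insert a _)
  have hbK : b ∈ Subgroup.closure {a, b} := Subgroup.subset_closure (Set.mem_insert_of_mem a rfl)
  refine ⟨Subgroup.closure {a, b}, t, t', piN_braid p2 p3 ha3 hbr, ?_, ?_, qm_rel h2 h, qm_rel h2 h', ?_⟩
  · rw [ht]; exact mul_mem (pow_mem (mul_mem haK hbK) 3) haK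
  · rw [ht']; exact mul_mem (pow_mem (mul_mem haK hbK) 3) hbK
  · intro c d e1 e2
    change c * ((1 + y + x) / 2 * c + (1 - x + y) / 2 * d) -
      d * ((1 + x - y) / 2 * c + (-1 + y + x) / 2 * d) = 0 at e1
    change c * ((1 + -y + -x) / 2 * c + (1 - -x + -y) / 2 * d) -
      d * ((1 + -x - -y) / 2 * c + (-1 + -y + -x) / 2 * d) = 0 at e2
    field_simp at e1 e2
    have f1 : c ^ 2 + d ^ 2 = 0 := by
      have : (2 : F) * (c ^ 2 + d ^ 2) = 0 := by linear_combination e1 + e2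
      exact (mul_eq_zero.1 this).resolve_left h2
    have f2 : c * ((x + y) * c + (y - x) * d) = 0 := by
      have : (4 : F) * (c * ((x + y) * c + (y - x) * d)) = 0 := by
        linear_combination e1 - e2 + 2 * (x + y) * f1
      have h4 : (4 : F) ≠ 0 := by
        have : (4 : F) = 2 * 2 := by norm_num
        rw [this]; exact mul_ne_zero h2 h2
      exact (mul_eq_zero.1 this).resolve_left h4
    rcases mul_eq_zero.1 f2 with f3 | f3
    · refine ⟨f3, ?_⟩
      rw [f3] at f1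
      have : d ^ 2 = 0 := by linear_combination f1
      exact pow_eq_zero_iff (two_ne_zero) |>.1 this
    · have f4 : (2 : F) * c ^ 2 = 0 := by
        have : ((x + y) * c) ^ 2 = ((x - y) * d) ^ 2 := by
          have : (x + y) * c = (x - y) * d := by linear_combination f3
          rw [this]
        linear_combination -this - (x - y) ^ 2 * f1 + 2 * c ^ 2 * h
      have f5 : c = 0 := pow_eq_zero_iff (two_ne_zero) |>.1 ((mul_eq_zero.1 f4).resolve_left h2)
      refine ⟨f5, ?_⟩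
      rw [f5] at f1
      have : d ^ 2 = 0 := by linear_combination f1
      exact pow_eq_zero_iff (two_ne_zero) |>.1 this

end Cfsg.Agent.H574.RV
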