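import Mathlib
import Cfsg.Agent.ClassicalGeometry.SympAutSemi

/-!
# Elements of the symplectic group: block diagonal elements, rotations in a hyperbolic plane
-/

set_option autoImplicit false

open Matrix Cfsg

namespace Cfsg.Agent.H574.RV

open Cfsg.Agent.ClassicalGeometry.SympBasic

variable {m : ℕ} {F : Type*} [Field F]

/-- A linear map preserving the form, as an element of the symplectic group. -/
noncomputable def mkSp (L : (Fin m ⊕ Fin m → F) →ₗ[F] (Fin m ⊕ Fin m → F))
    (h : ∀ u v, sympForm m F (L u) (L v) = sympForm m F u v) : symplecticGroup (Fin m) F :=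
  ⟨LinearMap.toMatrix' L, by
    rw [mem_symplecticGroup_iff]
    intro u v
    rw [LinearMap.toMatrix'_mulVec, LinearMap.toMatrix'_mulVec, h]⟩

theorem mkSp_mulVec (L : (Fin m ⊕ Fin m → F) →ₗ[F] (Fin m ⊕ Fin m → F))
    (h : ∀ u v, sympForm m F (L u) (L v) = sympForm m F u v) (v : Fin m ⊕ Fin m → F) :
    ((mkSp L h : symplecticGroup (Fin m) F) : Matrix (Fin m ⊕ Fin m) (Fin m ⊕ Fin m) F) *ᵥ v = L v :=
  LinearMap.toMatrix'_mulVec L v

/-- the action on vectors -/
def av (g : symplecticGroup (Fin m) F) (v : Fin m ⊕ Fin m → F) : Fin m ⊕ Fin m → F :=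
  (g : Matrix (Fin m ⊕ Fin m) (Fin m ⊕ Fin m) F) *ᵥ v

theorem av_mkSp (L : (Fin m ⊕ Fin m → F) →ₗ[F] (Fin m ⊕ Fin m → F))
    (h : ∀ u v, sympForm m F (L u) (L v) = sympForm m F u v) (v : Fin m ⊕ Fin m → F) :
    av (mkSp L h) v = L v := mkSp_mulVec L h v

theorem av_mul (g h : symplecticGroup (Fin m) F) (v : Fin m ⊕ Fin m → F) :
    av (g * h) v = av g (av h v) := by
  rw [av, av, av, Matrix.mulVec_mulVec]; rfl

theorem av_one (v : Fin m ⊕ Fin m → F) : av (1 : symplecticGroup (Fin m) F) v = v := by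
  rw [av, Submonoid.coe_one, Matrix.one_mulVec]

theorem av_add (g : symplecticGroup (Fin m) F) (u v : Fin m ⊕ Fin m → F) :
    av g (u + v) = av g u + av g v := Matrix.mulVec_add _ _ _

theorem av_sub (g : symplecticGroup (Fin m) F) (u v : Fin m ⊕ Fin m → F) :
    av g (u - v) = av g u - av g v := Matrix.mulVec_sub _ _ _

theorem av_smul (g : symplecticGroup (Fin m) F) (c : F) (v : Fin m ⊕ Fin m → F) :
    av g (c • v) = c • av g v := Matrix.mulVec_smul _ _ _

theorem av_neg (g : symplecticGroup (Fin m) F) (v : Fin m ⊕ Fin m → F) :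
    av g (-v) = -av g v := Matrix.mulVec_neg _ _

theorem av_form (g : symplecticGroup (Fin m) F) (u v : Fin m ⊕ Fin m → F) :
    sympForm m F (av g u) (av g v) = sympForm m F u v := sympForm_mulVec g.2 u v

theorem av_ext {g h : symplecticGroup (Fin m) F} (H : ∀ v, av g v = av h v) : g = h := by
  apply Subtype.ext
  rw [← Matrix.mulVec_injective.eq_iff]
  funext v
  exact H v

theorem av_inv_self (g : symplecticGroup (Fin m) F) (v : Fin m ⊕ Fin m → F) :
    av g⁻¹ (av g v) = v := by
  rw [← av_mul, inv_mul_cancel, av_one]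

theorem av_self_inv (g : symplecticGroup (Fin m) F) (v : Fin m ⊕ Fin m → F) :
    av g (av g⁻¹ v) = v := by
  rw [← av_mul, mul_inv_cancel, av_one]

theorem av_injective (g : symplecticGroup (Fin m) F) : Function.Injective (av g) := by
  intro u v h
  rw [← av_inv_self g u, h, av_inv_self]

/-! ### Block diagonal elements -/

/-- block diagonal linear maps -/
def PhiL (A : Fin m → Matrix (Fin 2) (Fin 2) F) :
    (Fin m ⊕ Fin m → F) →ₗ[F] (Fin m ⊕ Fin m → F) where
  toFun v := Sum.elim (fun i => A i 0 0 * v (Sum.inl i) + A i 0 1 * v (Sum.inr i))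
    (fun i => A i 1 0 * v (Sum.inl i) + A i 1 1 * v (Sum.inr i))
  map_add' u v := by
    ext j
    rcases j with i | i <;> simp <;> ring
  map_smul' c v := by
    ext j
    rcases j with i | i <;> simp <;> ring

theorem PhiL_inl (A : Fin m → Matrix (Fin 2) (Fin 2) F) (v : Fin m ⊕ Fin m → F) (i : Fin m) :
    PhiL A v (Sum.inl i) = A i 0 0 * v (Sum.inl i) + A i 0 1 * v (Sum.inr i) := rfl

theorem PhiL_inr (A : Fin m → Matrix (Fin 2) (Fin 2) F) (v : Fin m ⊕ Fin m → F) (i : Fin m) :
    PhiL A v (Sum.inr i) = A i 1 0 * v (Sum.inl i) + A i 1 1 * v (Sum.inr i) := rfl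

theorem PhiL_form (A : Fin m → SpecialLinearGroup (Fin 2) F) (u v : Fin m ⊕ Fin m → F) :
    sympForm m F (PhiL (fun i => (A i : Matrix (Fin 2) (Fin 2) F)) u)
      (PhiL (fun i => (A i : Matrix (Fin 2) (Fin 2) F)) v) = sympForm m F u v := by
  rw [sympForm_eq_sum, sympForm_eq_sum]
  refine Finset.sum_congr rfl fun i _ => ?_
  simp only [PhiL_inl, PhiL_inr]
  have h := (A i).2
  rw [Matrix.det_fin_two] at h
  linear_combination (u (Sum.inr i) * v (Sum.inl i) - u (Sum.inl i) * v (Sum.inr i)) * h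

/-- the block diagonal embedding of `SL_2^m` -/
noncomputable def Phi (m : ℕ) (F : Type*) [Field F] :
    (Fin m → SpecialLinearGroup (Fin 2) F) →* symplecticGroup (Fin m) F where
  toFun A := mkSp _ (PhiL_form A)
  map_one' := by
    apply av_ext
    intro v
    rw [av_mkSp, av_one]
    ext j
    rcases j with i | i
    · rw [PhiL_inl]; simp
    · rw [PhiL_inr]; simp
  map_mul' A B := by
    apply av_ext
    intro v
    rw [av_mul, av_mkSp, av_mkSp, av_mkSp]
    have key : ∀ (i : Fin m) (r c : Fin 2), (((A * B) i : SpecialLinearGroup (Fin 2) F) :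
        Matrix (Fin 2) (Fin 2) F) r c = (A i : Matrix (Fin 2) (Fin 2) F) r 0 *
          (B i : Matrix (Fin 2) (Fin 2) F) 0 c + (A i : Matrix (Fin 2) (Fin 2) F) r 1 *
          (B i : Matrix (Fin 2) (Fin 2) F) 1 c := by
      intro i r c
      have hh : (((A * B) i : SpecialLinearGroup (Fin 2) F) : Matrix (Fin 2) (Fin 2) F) =
        (A i : Matrix (Fin 2) (Fin 2) F) * (B i : Matrix (Fin 2) (Fin 2) F) := rfl
      rw [hh, Matrix.mul_apply, Fin.sum_univ_two]
    ext j
    rcases j with i | i
    · rw [PhiL_inl, PhiL_inl, PhiL_inl, PhiL_inr, key, key]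
      ring
    · rw [PhiL_inr, PhiL_inr, PhiL_inl, PhiL_inr, key, key]
      ring

theorem av_Phi (A : Fin m → SpecialLinearGroup (Fin 2) F) (v : Fin m ⊕ Fin m → F) :
    av (Phi m F A) v = PhiL (fun i => (A i : Matrix (Fin 2) (Fin 2) F)) v :=
  av_mkSp _ (PhiL_form A) v

/-- the `i`-th coordinate `SL_2` -/
noncomputable def phi (m : ℕ) (F : Type*) [Field F] (i : Fin m) :
    SpecialLinearGroup (Fin 2) F →* symplecticGroup (Fin m) F :=
  (Phi m F).comp (MonoidHom.mulSingle (fun _ => SpecialLinearGroup (Fin 2) F) i)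

theorem av_phi_inl (i : Fin m) (A : SpecialLinearGroup (Fin 2) F) (v : Fin m ⊕ Fin m → F) :
    av (phi m F i A) v (Sum.inl i) = A 0 0 * v (Sum.inl i) + A 0 1 * v (Sum.inr i) := by
  change av (Phi m F (Pi.mulSingle i A)) v (Sum.inl i) = _
  rw [av_Phi, PhiL_inl, Pi.mulSingle_eq_same]

theorem av_phi_inr (i : Fin m) (A : SpecialLinearGroup (Fin 2) F) (v : Fin m ⊕ Fin m → F) :
    av (phi m F i A) v (Sum.inr i) = A 1 0 * v (Sum.inl i) + A 1 1 * v (Sum.inr i) := by
  change av (Phi m F (Pi.mulSingle i A)) v (Sum.inr i) = _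
  rw [av_Phi, PhiL_inr, Pi.mulSingle_eq_same]

theorem av_phi_inl_ne {i j : Fin m} (h : j ≠ i) (A : SpecialLinearGroup (Fin 2) F)
    (v : Fin m ⊕ Fin m → F) : av (phi m F i A) v (Sum.inl j) = v (Sum.inl j) := by
  change av (Phi m F (Pi.mulSingle i A)) v (Sum.inl j) = _
  rw [av_Phi, PhiL_inl, Pi.mulSingle_eq_of_ne h]
  simp

theorem av_phi_inr_ne {i j : Fin m} (h : j ≠ i) (A : SpecialLinearGroup (Fin 2) F)
    (v : Fin m ⊕ Fin m → F) : av (phi m F i A) v (Sum.inr j) = v (Sum.inr j) := by
  change av (Phi m F (Pi.mulSingle i A)) v (Sum.inr j) = _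
  rw [av_Phi, PhiL_inr, Pi.mulSingle_eq_of_ne h]
  simp

/-! ### Rotations of order three in a hyperbolic plane -/

/-- the rotation `u ↦ w ↦ -u - w` of the hyperbolic plane spanned by `u, w` -/
def rotL (u w : Fin m ⊕ Fin m → F) : (Fin m ⊕ Fin m → F) →ₗ[F] (Fin m ⊕ Fin m → F) where
  toFun v := v + sympForm m F v w • (w - u) + sympForm m F v u • (u + (2 : F) • w)
  map_add' x y := by
    rw [sympForm_add_left, sympForm_add_left]; module
  map_smul' c x := by
    rw [sympForm_smul_left, sympForm_smul_left]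
    simp only [RingHom.id_apply]; module

theorem rotL_apply (u w v : Fin m ⊕ Fin m → F) :
    rotL u w v = v + sympForm m F v w • (w - u) + sympForm m F v u • (u + (2 : F) • w) := rfl

theorem rotL_form {u w : Fin m ⊕ Fin m → F} (h : sympForm m F u w = 1) (x y : Fin m ⊕ Fin m → F) :
    sympForm m F (rotL u w x) (rotL u w y) = sympForm m F x y := by
  have h' : sympForm m F w u = -1 := by rw [sympForm_swap, h]
  simp only [rotL_apply, sympForm_add_left, sympForm_add_right, sympForm_smul_left,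
    sympForm_smul_right, sympForm_sub_left, sympForm_sub_right, sympForm_self, h, h',
    sympForm_swap u y, sympForm_swap w y]
  ring

/-- the rotation as an element of the symplectic group -/
noncomputable def rot {u w : Fin m ⊕ Fin m → F} (h : sympForm m F u w = 1) :
    symplecticGroup (Fin m) F := mkSp _ (rotL_form h)

theorem av_rot {u w : Fin m ⊕ Fin m → F} (h : sympForm m F u w = 1) (v : Fin m ⊕ Fin m → F) :
    av (rot h) v = v + sympForm m F v w • (w - u) + sympForm m F v u • (u + (2 : F) • w) :=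
  av_mkSp _ _ v

theorem rot_cube {u w : Fin m ⊕ Fin m → F} (h : sympForm m F u w = 1) : rot h ^ 3 = 1 := by
  have h' : sympForm m F w u = -1 := by rw [sympForm_swap, h]
  apply av_ext
  intro v
  rw [pow_succ, sq, av_mul, av_mul, av_one]
  simp only [av_rot, sympForm_add_left, sympForm_smul_left, sympForm_sub_left, sympForm_self, h, h']
  module

/-- the braid relation -/
theorem rot_braid (h3 : (3 : F) ≠ 0) {u w u' w' : Fin m ⊕ Fin m → F} (h : sympForm m F u w = 1)
    (h' : sympForm m F u' w' = 1) (h1 : 3 * sympForm m F u u' = 1) (h2 : 3 * sympForm m F u w' = 1)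
    (h4 : 3 * sympForm m F w u' = -2) (h5 : 3 * sympForm m F w w' = 1) :
    rot h * rot h' * rot h = rot h' * rot h * rot h' := by
  have e : sympForm m F w u = -1 := by rw [sympForm_swap, h]
  have e' : sympForm m F w' u' = -1 := by rw [sympForm_swap, h']
  have k1 : sympForm m F u u' = 3⁻¹ := by field_simp; linear_combination h1
  have k2 : sympForm m F u w' = 3⁻¹ := by field_simp; linear_combination h2
  have k4 : sympForm m F w u' = -2 * 3⁻¹ := by field_simp; linear_combination h4
  have k5 : sympForm m F w w' = 3⁻¹ := by field_simp; linear_combination h5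
  have k1' : sympForm m F u' u = -3⁻¹ := by rw [sympForm_swap, k1]
  have k2' : sympForm m F w' u = -3⁻¹ := by rw [sympForm_swap, k2]
  have k4' : sympForm m F u' w = 2 * 3⁻¹ := by rw [sympForm_swap, k4]; ring
  have k5' : sympForm m F w' w = -3⁻¹ := by rw [sympForm_swap, k5]
  apply av_ext
  intro v
  rw [av_mul, av_mul, av_mul, av_mul]
  simp only [av_rot, sympForm_add_left, sympForm_smul_left, sympForm_sub_left, sympForm_self, h, h',
    e, e', k1, k2, k4, k5, k1', k2', k4', k5']
  match_scalars <;> field_simp <;> ring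

end Cfsg.Agent.H574.RV
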