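import Cfsg.Agent.H574.RV.SpEl
import Cfsg.Agent.H170.RV.Mod

/-!
# A frame of hyperbolic planes permuted by a `p'`-subgroup of the symplectic group
-/

set_option autoImplicit false

open Matrix Cfsg

namespace Cfsg.Agent.H574.RV

open Cfsg.Agent.ClassicalGeometry.SympBasic

variable {m : ℕ} {F : Type*} [Field F]

/-- the natural representation -/
noncomputable def rep (m : ℕ) (F : Type*) [Field F] :
    symplecticGroup (Fin m) F →* Module.End F (Fin m ⊕ Fin m → F) where
  toFun g := ⟨⟨av g, av_add g⟩, av_smul g⟩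
  map_one' := by
    apply LinearMap.ext
    intro v
    exact av_one v
  map_mul' g h := by
    apply LinearMap.ext
    intro v
    exact av_mul g h v

theorem rep_apply (g : symplecticGroup (Fin m) F) (v : Fin m ⊕ Fin m → F) : rep m F g v = av g v := rfl

/-- the action of an element as a linear equivalence -/
noncomputable def avE (g : symplecticGroup (Fin m) F) :
    (Fin m ⊕ Fin m → F) ≃ₗ[F] (Fin m ⊕ Fin m → F) where
  toFun := av g
  map_add' := av_add g
  map_smul' := av_smul g
  invFun := av g⁻¹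
  left_inv := av_inv_self g
  right_inv := av_self_inv g

theorem avE_apply (g : symplecticGroup (Fin m) F) (v : Fin m ⊕ Fin m → F) : avE g v = av g v := rfl

/-! ### The planes -/

/-- the `i`-th hyperbolic plane -/
def Dp (m : ℕ) (F : Type*) [Field F] (i : Fin m) : Submodule F (Fin m ⊕ Fin m → F) where
  carrier := {v | ∀ j, j ≠ i → v (Sum.inl j) = 0 ∧ v (Sum.inr j) = 0}
  add_mem' {u v} hu hv j hj := by
    rw [Pi.add_apply, Pi.add_apply, (hu j hj).1, (hu j hj).2, (hv j hj).1, (hv j hj).2, add_zero]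
    exact ⟨rfl, rfl⟩
  zero_mem' _ _ := ⟨rfl, rfl⟩
  smul_mem' c v hv j hj := by
    rw [Pi.smul_apply, Pi.smul_apply, (hv j hj).1, (hv j hj).2, smul_zero]
    exact ⟨rfl, rfl⟩

theorem mem_Dp {i : Fin m} {v : Fin m ⊕ Fin m → F} :
    v ∈ Dp m F i ↔ ∀ j, j ≠ i → v (Sum.inl j) = 0 ∧ v (Sum.inr j) = 0 := Iff.rfl

/-- the `i`-th component -/
def comp (i : Fin m) (v : Fin m ⊕ Fin m → F) : Fin m ⊕ Fin m → F :=
  Sum.elim (fun j => if j = i then v (Sum.inl j) else 0) (fun j => if j = i then v (Sum.inr j) else 0)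

theorem comp_inl (i : Fin m) (v : Fin m ⊕ Fin m → F) (j : Fin m) :
    comp i v (Sum.inl j) = if j = i then v (Sum.inl j) else 0 := rfl

theorem comp_inr (i : Fin m) (v : Fin m ⊕ Fin m → F) (j : Fin m) :
    comp i v (Sum.inr j) = if j = i then v (Sum.inr j) else 0 := rfl

theorem comp_mem (i : Fin m) (v : Fin m ⊕ Fin m → F) : comp i v ∈ Dp m F i := by
  intro j hj
  rw [comp_inl, comp_inr, if_neg hj, if_neg hj]
  exact ⟨rfl, rfl⟩

theorem comp_of_mem {i : Fin m} {v : Fin m ⊕ Fin m → F} (hv : v ∈ Dp m F i) : comp i v = v := by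
  ext j
  rcases j with j | j
  · rw [comp_inl]
    split_ifs with h
    · rfl
    · exact (hv j h).1.symm
  · rw [comp_inr]
    split_ifs with h
    · rfl
    · exact (hv j h).2.symm

theorem comp_of_mem_ne {i j : Fin m} (hij : i ≠ j) {v : Fin m ⊕ Fin m → F} (hv : v ∈ Dp m F i) :
    comp j v = 0 := by
  ext k
  rcases k with k | k
  · rw [comp_inl]
    split_ifs with h
    · exact (hv k (by rw [h]; exact hij.symm)).1
    · rfl
  · rw [comp_inr]
    split_ifs with h
    · exact (hv k (by rw [h]; exact hij.symm)).2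
    · rfl

theorem comp_add (i : Fin m) (u v : Fin m ⊕ Fin m → F) : comp i (u + v) = comp i u + comp i v := by
  ext k
  rcases k with k | k
  · simp only [Pi.add_apply, comp_inl]; split_ifs <;> simp
  · simp only [Pi.add_apply, comp_inr]; split_ifs <;> simp

theorem comp_sub (i : Fin m) (u v : Fin m ⊕ Fin m → F) : comp i (u - v) = comp i u - comp i v := by
  ext k
  rcases k with k | k
  · simp only [Pi.sub_apply, comp_inl]; split_ifs <;> simp
  · simp only [Pi.sub_apply, comp_inr]; split_ifs <;> simp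

theorem eq_zero_of_comp {v : Fin m ⊕ Fin m → F} (h : ∀ i, comp i v = 0) : v = 0 := by
  ext k
  rcases k with k | k
  · have := congrFun (h k) (Sum.inl k)
    rwa [comp_inl, if_pos rfl] at this
  · have := congrFun (h k) (Sum.inr k)
    rwa [comp_inr, if_pos rfl] at this

theorem eq_of_comp {u v : Fin m ⊕ Fin m → F} (h : ∀ i, comp i u = comp i v) : u = v := by
  rw [← sub_eq_zero]
  apply eq_zero_of_comp
  intro i
  rw [comp_sub, h, sub_self]

theorem form_Dp {i : Fin m} {v : Fin m ⊕ Fin m → F} (hv : v ∈ Dp m F i) (x : Fin m ⊕ Fin m → F) :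
    sympForm m F v x = v (Sum.inr i) * x (Sum.inl i) - v (Sum.inl i) * x (Sum.inr i) := by
  rw [sympForm_eq_sum]
  apply Finset.sum_eq_single i
  · intro j _ hj
    rw [(hv j hj).1, (hv j hj).2]; ring
  · intro h; exact absurd (Finset.mem_univ i) h

theorem form_ne {i j : Fin m} (hij : i ≠ j) {u v : Fin m ⊕ Fin m → F} (hu : u ∈ Dp m F i)
    (hv : v ∈ Dp m F j) : sympForm m F u v = 0 := by
  rw [form_Dp hu, (hv i hij).1, (hv i hij).2]; ring

theorem plucker {i : Fin m} {x u w : Fin m ⊕ Fin m → F} (hx : x ∈ Dp m F i) (hu : u ∈ Dp m F i)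
    (hw : w ∈ Dp m F i) :
    sympForm m F u w • x = sympForm m F x w • u - sympForm m F x u • w := by
  rw [form_Dp hu, form_Dp hx, form_Dp hx]
  ext k
  rcases k with k | k
  · by_cases h : k = i
    · subst h
      simp only [Pi.smul_apply, Pi.sub_apply, smul_eq_mul]; ring
    · simp only [Pi.smul_apply, Pi.sub_apply, smul_eq_mul, (hx k h).1, (hu k h).1, (hw k h).1]; ring
  · by_cases h : k = i
    · subst h
      simp only [Pi.smul_apply, Pi.sub_apply, smul_eq_mul]; ring
    · simp only [Pi.smul_apply, Pi.sub_apply, smul_eq_mul, (hx k h).2, (hu k h).2, (hw k h).2]; ring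

/-- the plane as `F × F` -/
def dpE (i : Fin m) : Dp m F i ≃ₗ[F] (F × F) where
  toFun v := (v.1 (Sum.inl i), v.1 (Sum.inr i))
  map_add' _ _ := rfl
  map_smul' _ _ := rfl
  invFun p := ⟨Sum.elim (fun j => if j = i then p.1 else 0) (fun j => if j = i then p.2 else 0), by
    intro j hj
    simp [hj]⟩
  left_inv v := by
    apply Subtype.ext
    ext k
    rcases k with k | k
    · by_cases h : k = i
      · subst h; simp
      · simp [h, (v.2 k h).1]
    · by_cases h : k = i
      · subst h; simp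
      · simp [h, (v.2 k h).2]
  right_inv p := by simp

theorem finrank_Dp (i : Fin m) : Module.finrank F (Dp m F i) = 2 := by
  rw [(dpE i).finrank_eq, Module.finrank_prod, Module.finrank_self]

/-- two non-parallel vectors span the plane -/
theorem Dp_span {i : Fin m} {u w : Fin m ⊕ Fin m → F} (hu : u ∈ Dp m F i) (hw : w ∈ Dp m F i)
    (h : sympForm m F u w ≠ 0) {W : Submodule F (Fin m ⊕ Fin m → F)} (h1 : u ∈ W) (h2 : w ∈ W) :
    Dp m F i ≤ W := by
  intro x hx
  have h3 := plucker hx hu hw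
  have h4 : x = (sympForm m F u w)⁻¹ • (sympForm m F x w • u - sympForm m F x u • w) := by
    rw [← h3, smul_smul, inv_mul_cancel₀ h, one_smul]
  rw [h4]
  exact W.smul_mem _ (W.sub_mem (W.smul_mem _ h1) (W.smul_mem _ h2))

theorem Dp_eq {i j : Fin m} (h : Dp m F i ≤ Dp m F j) : i = j := by
  by_contra hij
  have h1 : (Pi.single (Sum.inl i) 1 : Fin m ⊕ Fin m → F) ∈ Dp m F i := by
    intro k hk
    simp [hk]
  have h2 := (h h1 i hij).1
  simp at h2

/-! ### The coordinate `SL_2`'s -/

theorem av_phi_sub_mem (i : Fin m) (A : SpecialLinearGroup (Fin 2) F) (v : Fin m ⊕ Fin m → F) :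
    av (phi m F i A) v - v ∈ Dp m F i := by
  intro j hj
  rw [Pi.sub_apply, Pi.sub_apply, av_phi_inl_ne hj, av_phi_inr_ne hj, sub_self, sub_self]
  exact ⟨rfl, rfl⟩

theorem rel_phi {i : Fin m} {A : SpecialLinearGroup (Fin 2) F}
    (hA : (A : Matrix (Fin 2) (Fin 2) F) * (A : Matrix (Fin 2) (Fin 2) F) - A + 1 = 0) :
    (rep m F (phi m F i A) - 1) *
      (rep m F (phi m F i A) * rep m F (phi m F i A) - rep m F (phi m F i A) + 1) = 0 := by
  apply LinearMap.ext
  intro v
  have h00 := congrFun (congrFun hA 0) 0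
  have h01 := congrFun (congrFun hA 0) 1
  have h10 := congrFun (congrFun hA 1) 0
  have h11 := congrFun (congrFun hA 1) 1
  simp only [Matrix.add_apply, Matrix.sub_apply, Matrix.mul_apply, Fin.sum_univ_two,
    Matrix.one_apply, Matrix.zero_apply, if_true] at h00 h01 h10 h11
  rw [if_neg (by decide)] at h01 h10
  set x := av (phi m F i A) (av (phi m F i A) v) - av (phi m F i A) v + v with hx
  change av (phi m F i A) x - x = 0
  have hx1 : x (Sum.inl i) = 0 := by
    rw [hx, Pi.add_apply, Pi.sub_apply, av_phi_inl, av_phi_inl, av_phi_inr]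
    linear_combination v (Sum.inl i) * h00 + v (Sum.inr i) * h01
  have hx2 : x (Sum.inr i) = 0 := by
    rw [hx, Pi.add_apply, Pi.sub_apply, av_phi_inr, av_phi_inl, av_phi_inr]
    linear_combination v (Sum.inl i) * h10 + v (Sum.inr i) * h11
  ext k
  rcases k with k | k
  · by_cases h : k = i
    · subst h
      rw [Pi.sub_apply, av_phi_inl, hx1, hx2, Pi.zero_apply]; ring
    · rw [Pi.sub_apply, av_phi_inl_ne h, sub_self, Pi.zero_apply]
  · by_cases h : k = i
    · subst h
      rw [Pi.sub_apply, av_phi_inr, hx1, hx2, Pi.zero_apply]; ring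
    · rw [Pi.sub_apply, av_phi_inr_ne h, sub_self, Pi.zero_apply]

theorem rel_conj {i : Fin m} {A : SpecialLinearGroup (Fin 2) F} (h : symplecticGroup (Fin m) F)
    (hA : (A : Matrix (Fin 2) (Fin 2) F) * (A : Matrix (Fin 2) (Fin 2) F) - A + 1 = 0) :
    (rep m F (h * phi m F i A * h⁻¹) - 1) *
      (rep m F (h * phi m F i A * h⁻¹) * rep m F (h * phi m F i A * h⁻¹) -
        rep m F (h * phi m F i A * h⁻¹) + 1) = 0 := by
  have h1 := rel_phi (i := i) hA
  have h2 : rep m F h * rep m F h⁻¹ = 1 := by rw [← map_mul, mul_inv_cancel, map_one]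
  have h3 : rep m F h⁻¹ * rep m F h = 1 := by rw [← map_mul, inv_mul_cancel, map_one]
  have h4 : (rep m F (h * phi m F i A * h⁻¹) - 1) *
      (rep m F (h * phi m F i A * h⁻¹) * rep m F (h * phi m F i A * h⁻¹) -
        rep m F (h * phi m F i A * h⁻¹) + 1) = rep m F h * ((rep m F (phi m F i A) - 1) *
      (rep m F (phi m F i A) * rep m F (phi m F i A) - rep m F (phi m F i A) + 1)) * rep m F h⁻¹ := by
    rw [map_mul, map_mul]
    generalize rep m F h = a at *
    generalize rep m F h⁻¹ = b at *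
    generalize rep m F (phi m F i A) = c at *
    have e1 : a * c * b - 1 = a * (c - 1) * b := by
      rw [mul_sub, sub_mul, mul_one, h2]
    have e2 : a * c * b * (a * c * b) - a * c * b + 1 = a * (c * c - c + 1) * b := by
      have : a * c * b * (a * c * b) = a * (c * c) * b := by
        calc a * c * b * (a * c * b) = a * c * (b * a) * c * b := by noncomm_ring
          _ = a * (c * c) * b := by rw [h3]; noncomm_ring
      rw [this, mul_add, mul_sub, add_mul, sub_mul, mul_one, h2]
    rw [e1, e2]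
    calc a * (c - 1) * b * (a * (c * c - c + 1) * b) = a * (c - 1) * (b * a) * (c * c - c + 1) * b := by
          noncomm_ring
      _ = _ := by rw [h3, mul_one]; noncomm_ring
  rw [h4, h1, mul_zero, zero_mul]

/-- the frame of planes is permuted -/
theorem frame (p : ℕ) [Fact p.Prime] [CharP F p] (h5 : 5 ≤ p)
    (H : Subgroup (symplecticGroup (Fin m) F)) [Finite H] (hH : ¬ p ∣ Nat.card H)
    {t t' : SpecialLinearGroup (Fin 2) F}
    (ht : (t : Matrix (Fin 2) (Fin 2) F) * (t : Matrix (Fin 2) (Fin 2) F) - t + 1 = 0)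
    (ht' : (t' : Matrix (Fin 2) (Fin 2) F) * (t' : Matrix (Fin 2) (Fin 2) F) - t' + 1 = 0)
    (htH : ∀ i, phi m F i t ∈ H) (htH' : ∀ i, phi m F i t' ∈ H)
    (hirr : ∀ a b : F, a * (t 1 0 * a + t 1 1 * b) - b * (t 0 0 * a + t 0 1 * b) = 0 →
      a * (t' 1 0 * a + t' 1 1 * b) - b * (t' 0 0 * a + t' 0 1 * b) = 0 → a = 0 ∧ b = 0)
    {h : symplecticGroup (Fin m) F} (hh : h ∈ H) (i : Fin m) :
    ∃ j, ∀ v, v ∈ Dp m F j ↔ av h v ∈ Dp m F i := by
  have h20 : (2 : F) ≠ 0 := by
    intro h0
    have h1 : ((2 : ℕ) : F) = 0 := by exact_mod_cast h0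
    rw [CharP.cast_eq_zero_iff F p] at h1
    have := Nat.le_of_dvd (by norm_num) h1
    omega
  have ht3 : ((t ^ 3 : SpecialLinearGroup (Fin 2) F) : Matrix (Fin 2) (Fin 2) F) = -1 := by
    have e0 : (t : Matrix (Fin 2) (Fin 2) F) * (t : Matrix (Fin 2) (Fin 2) F) = t - 1 := by
      have : (t : Matrix (Fin 2) (Fin 2) F) * (t : Matrix (Fin 2) (Fin 2) F) =
        ((t : Matrix (Fin 2) (Fin 2) F) * (t : Matrix (Fin 2) (Fin 2) F) - t + 1) + (t - 1) := by
        noncomm_ring
      rw [this, ht, zero_add]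
    have e1 : ((t ^ 3 : SpecialLinearGroup (Fin 2) F) : Matrix (Fin 2) (Fin 2) F) =
        (t : Matrix (Fin 2) (Fin 2) F) * (t : Matrix (Fin 2) (Fin 2) F) * (t : Matrix (Fin 2) (Fin 2) F) := by
      rw [pow_succ, sq]; rfl
    rw [e1, e0, sub_mul, one_mul, e0]
    noncomm_ring
  have hcube : ∀ (j : Fin m) (v : Fin m ⊕ Fin m → F),
      av (phi m F j (t ^ 3)) v = v - (2 : F) • comp j v := by
    intro j v
    have h00 := congrFun (congrFun ht3 0) 0
    have h01 := congrFun (congrFun ht3 0) 1
    have h10 := congrFun (congrFun ht3 1) 0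
    have h11 := congrFun (congrFun ht3 1) 1
    simp only [Matrix.neg_apply, Matrix.one_apply, if_true] at h00 h01 h10 h11
    rw [if_neg (by decide)] at h01 h10
    ext k
    rcases k with k | k
    · rw [Pi.sub_apply, Pi.smul_apply, comp_inl, smul_eq_mul]
      by_cases hk : k = j
      · subst hk
        rw [av_phi_inl, h00, h01, if_pos rfl]; ring
      · rw [av_phi_inl_ne hk, if_neg hk]; ring
    · rw [Pi.sub_apply, Pi.smul_apply, comp_inr, smul_eq_mul]
      by_cases hk : k = j
      · subst hk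
        rw [av_phi_inr, h10, h11, if_pos rfl]; ring
      · rw [av_phi_inr_ne hk, if_neg hk]; ring
  have hneg : ∀ (u : Fin m ⊕ Fin m → F), u ∈ Dp m F i ↔ av (phi m F i (t ^ 3)) u = -u := by
    intro u
    rw [hcube]
    constructor
    · intro hu
      rw [comp_of_mem hu]
      module
    · intro hu
      have h1 : (2 : F) • u = (2 : F) • comp i u := by
        have h2 : u - (2 : F) • comp i u = -u := hu
        have h3 : (2 : F) • u = (u - (2 : F) • comp i u) + u + (2 : F) • comp i u := by module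
        rw [h3, h2]; module
      have h2 : u = comp i u := by
        have h3 := congrArg (fun x => (2 : F)⁻¹ • x) h1
        simpa only [smul_smul, inv_mul_cancel₀ h20, one_smul] using h3
      rw [h2]
      exact comp_mem i u
  have hinj : Function.Injective (rep m F) := by
    intro a b hab
    exact av_ext fun v => LinearMap.congr_fun hab v
  -- the commutation
  have hcomm : ∀ (j : Fin m) (s : SpecialLinearGroup (Fin 2) F),
      (s : Matrix (Fin 2) (Fin 2) F) * (s : Matrix (Fin 2) (Fin 2) F) - s + 1 = 0 → phi m F j s ∈ H →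
      phi m F i (t ^ 3) * (h * phi m F j s * h⁻¹) = (h * phi m F j s * h⁻¹) * phi m F i (t ^ 3) := by
    intro j s hs hsH
    have h1 := H170.RV.t60_mod (k := F) p h5 (X := H) hH ((rep m F).comp H.subtype)
      ⟨phi m F i t, htH i⟩ ⟨h * phi m F j s * h⁻¹, mul_mem (mul_mem hh hsH) (inv_mem hh)⟩
      (rel_phi ht) (rel_conj h hs)
    have h2 : rep m F (phi m F i (t ^ 3) * (h * phi m F j s * h⁻¹)) =
        rep m F ((h * phi m F j s * h⁻¹) * phi m F i (t ^ 3)) := by
      rw [map_mul (rep m F), map_mul (rep m F) (h * phi m F j s * h⁻¹), map_pow]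
      exact h1
    exact hinj h2
  -- the subspace
  set W : Submodule F (Fin m ⊕ Fin m → F) := (Dp m F i).comap (rep m F h) with hW
  have hWmem : ∀ v, v ∈ W ↔ av h v ∈ Dp m F i := fun v => Iff.rfl
  have hinv : ∀ (j : Fin m) (s : SpecialLinearGroup (Fin 2) F),
      (s : Matrix (Fin 2) (Fin 2) F) * (s : Matrix (Fin 2) (Fin 2) F) - s + 1 = 0 → phi m F j s ∈ H →
      ∀ v ∈ W, av (phi m F j s) v ∈ W := by
    intro j s hs hsH v hv
    rw [hWmem, hneg] at hv ⊢
    have h1 := hcomm j s hs hsH
    have h2 : phi m F i (t ^ 3) * (h * phi m F j s) = h * phi m F j s * h⁻¹ * phi m F i (t ^ 3) * h := by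
      rw [← h1]; group
    rw [← av_mul h, ← av_mul, h2, av_mul, av_mul, hv, av_neg, av_mul, av_inv_self]
  have hinv3 : ∀ j, ∀ v ∈ W, comp j v ∈ W := by
    intro j v hv
    have h1 := hinv j t ht (htH j) _ (hinv j t ht (htH j) _ (hinv j t ht (htH j) v hv))
    rw [← av_mul, ← av_mul, ← map_mul, ← map_mul] at h1
    have h2 : t * (t * t) = t ^ 3 := by rw [pow_succ, sq, mul_assoc]
    rw [mul_assoc, h2, hcube] at h1
    have h3 : comp j v = (2 : F)⁻¹ • (v - (v - (2 : F) • comp j v)) := by
      rw [sub_sub_cancel, smul_smul, inv_mul_cancel₀ h20, one_smul]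
    rw [h3]
    exact W.smul_mem _ (W.sub_mem hv h1)
  -- a nonzero vector
  obtain ⟨w, hwW, hw0⟩ : ∃ w ∈ W, w ≠ 0 := by
    refine ⟨av h⁻¹ (Pi.single (Sum.inl i) 1), ?_, ?_⟩
    · rw [hWmem, av_self_inv]
      intro k hk
      simp [hk]
    · intro h0
      have h1 : av h (av h⁻¹ (Pi.single (Sum.inl i) 1)) = av h 0 := by rw [h0]
      rw [av_self_inv] at h1
      have h2 : av h (0 : Fin m ⊕ Fin m → F) = 0 := map_zero (rep m F h)
      rw [h2] at h1
      have h3 := congrFun h1 (Sum.inl i)
      simp at h3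
  obtain ⟨j, hj⟩ : ∃ j, comp j w ≠ 0 := by
    by_contra hcon
    push Not at hcon
    exact hw0 (eq_zero_of_comp hcon)
  set c := comp j w with hc
  have hcD : c ∈ Dp m F j := comp_mem j w
  have hcW : c ∈ W := hinv3 j w hwW
  have hsD : ∀ s : SpecialLinearGroup (Fin 2) F, av (phi m F j s) c ∈ Dp m F j := by
    intro s
    have h1 := (Dp m F j).add_mem (av_phi_sub_mem j s c) hcD
    rwa [sub_add_cancel] at h1
  have hle : Dp m F j ≤ W := by
    by_cases h1 : sympForm m F c (av (phi m F j t) c) = 0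
    · by_cases h2 : sympForm m F c (av (phi m F j t') c) = 0
      · exfalso
        rw [form_Dp hcD, av_phi_inl, av_phi_inr] at h1 h2
        obtain ⟨h3, h4⟩ := hirr (c (Sum.inl j)) (c (Sum.inr j)) (by linear_combination -h1)
          (by linear_combination -h2)
        apply hj
        ext k
        rcases k with k | k
        · by_cases hk : k = j
          · subst hk; exact h3
          · exact (hcD k hk).1
        · by_cases hk : k = j
          · subst hk; exact h4
          · exact (hcD k hk).2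
      · exact Dp_span hcD (hsD t') h2 hcW (hinv j t' ht' (htH' j) c hcW)
    · exact Dp_span hcD (hsD t) h1 hcW (hinv j t ht (htH j) c hcW)
  have hWe : W = (Dp m F i).comap (avE h : (Fin m ⊕ Fin m → F) →ₗ[F] (Fin m ⊕ Fin m → F)) := rfl
  have hfr : Module.finrank F W = 2 := by
    rw [hWe, Submodule.comap_equiv_eq_map_symm, LinearEquiv.finrank_map_eq, finrank_Dp]
  have heq : Dp m F j = W := Submodule.eq_of_le_of_finrank_eq hle (by rw [finrank_Dp, hfr])
  refine ⟨j, fun v => ?_⟩
  rw [heq, hWmem]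

end Cfsg.Agent.H574.RV
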