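import Cfsg.Agent.H574.RV.SpFrame

/-!
# Elements of order three with two-dimensional support preserve a frame
-/

set_option autoImplicit false

open Matrix Cfsg

namespace Cfsg.Agent.H574.RV

open Cfsg.Agent.ClassicalGeometry.SympBasic

variable {m : ℕ} {F : Type*} [Field F]

/-- the component as a linear map -/
def compL (i : Fin m) : (Fin m ⊕ Fin m → F) →+ (Fin m ⊕ Fin m → F) where
  toFun := comp i
  map_zero' := by
    have h := comp_add i (0 : Fin m ⊕ Fin m → F) 0
    rwa [add_zero, left_eq_add] at h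
  map_add' := comp_add i

theorem sum_comp (v : Fin m ⊕ Fin m → F) : ∑ j, comp j v = v := by
  ext k
  rcases k with k | k
  · rw [Finset.sum_apply]
    simp [comp_inl]
  · rw [Finset.sum_apply]
    simp [comp_inr]

/-- fixed-point-free on a plane: every vector is congruent to one of the plane -/
theorem exists_diff {y : symplecticGroup (Fin m) F} {u w : Fin m ⊕ Fin m → F}
    (hfix : ∀ v, av y v = v ↔ sympForm m F v u = 0 ∧ sympForm m F v w = 0) {i : Fin m}
    (hnf : ∀ v ∈ Dp m F i, av y v = v → v = 0) (v : Fin m ⊕ Fin m → F) :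
    ∃ v' ∈ Dp m F i, av y v - av y v' = v - v' := by
  let φ : Dp m F i →ₗ[F] F × F :=
    { toFun := fun x => (sympForm m F x.1 u, sympForm m F x.1 w)
      map_add' := fun x x' => by
        simp only [Submodule.coe_add, sympForm_add_left, Prod.mk_add_mk]
      map_smul' := fun c x => by
        simp only [Submodule.coe_smul, sympForm_smul_left, Prod.smul_mk, smul_eq_mul, RingHom.id_apply] }
  have hinj : Function.Injective φ := by
    rw [injective_iff_map_eq_zero]
    intro x hx
    have h1 : sympForm m F x.1 u = 0 ∧ sympForm m F x.1 w = 0 :=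
      ⟨congrArg Prod.fst hx, congrArg Prod.snd hx⟩
    exact Subtype.ext (hnf x.1 x.2 ((hfix x.1).2 h1))
  have hsurj : Function.Surjective φ := by
    rw [← LinearMap.injective_iff_surjective_of_finrank_eq_finrank]
    · exact hinj
    · rw [finrank_Dp, Module.finrank_prod, Module.finrank_self]
  obtain ⟨x, hx⟩ := hsurj (sympForm m F v u, sympForm m F v w)
  refine ⟨x.1, x.2, ?_⟩
  rw [← av_sub]
  apply (hfix _).2
  rw [sympForm_sub_left, sympForm_sub_left]
  have h1 : sympForm m F x.1 u = sympForm m F v u := congrArg Prod.fst hx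
  have h2 : sympForm m F x.1 w = sympForm m F v w := congrArg Prod.snd hx
  rw [h1, h2, sub_self, sub_self]
  exact ⟨rfl, rfl⟩

theorem single_mem (i : Fin m) : (Pi.single (Sum.inl i) 1 : Fin m ⊕ Fin m → F) ∈ Dp m F i := by
  intro k hk
  simp [hk]

theorem single_mem' (i : Fin m) : (Pi.single (Sum.inr i) 1 : Fin m ⊕ Fin m → F) ∈ Dp m F i := by
  intro k hk
  simp [hk]

theorem single_ne (i : Fin m) : (Pi.single (Sum.inl i) 1 : Fin m ⊕ Fin m → F) ≠ 0 := by
  intro h
  have := congrFun h (Sum.inl i)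
  simp at this

/-- all planes are preserved -/
theorem rot_pres {y : symplecticGroup (Fin m) F} {u w : Fin m ⊕ Fin m → F} (hy : y ^ 3 = 1)
    (hfix : ∀ v, av y v = v ↔ sympForm m F v u = 0 ∧ sympForm m F v w = 0)
    (hfr : ∀ i, ∃ j, ∀ v, v ∈ Dp m F j ↔ av y v ∈ Dp m F i)
    (hfr' : ∀ i, ∃ j, ∀ v, v ∈ Dp m F j ↔ av y⁻¹ v ∈ Dp m F i) (i : Fin m) (v : Fin m ⊕ Fin m → F) :
    v ∈ Dp m F i ↔ av y v ∈ Dp m F i := by
  obtain ⟨j, hj⟩ := hfr i
  by_cases hij : j = i
  · rw [← hj, hij]
  obtain ⟨k, hk'⟩ := hfr' i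
  have hk : ∀ v, v ∈ Dp m F i ↔ av y v ∈ Dp m F k := by
    intro v
    rw [hk', av_inv_self]
  have hki : k ≠ i := by
    rintro rfl
    apply hij
    apply Dp_eq (m := m) (F := F)
    intro x hx
    rw [hk]
    exact (hj x).1 hx
  have hkj : k ≠ j := by
    rintro rfl
    apply hij
    apply Dp_eq (m := m) (F := F)
    intro x hx
    have h1 := (hj _).1 ((hk _).1 ((hj x).1 hx))
    rw [← av_mul, ← av_mul] at h1
    have h2 : y * (y * y) = 1 := by rw [← hy, pow_succ, sq, mul_assoc]
    rwa [mul_assoc, h2, av_one] at h1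
  have hnf : ∀ v ∈ Dp m F i, av y v = v → v = 0 := by
    intro v hv hyv
    have h1 := (hk v).1 hv
    rw [hyv] at h1
    have h2 := comp_of_mem_ne hki h1
    rwa [comp_of_mem hv] at h2
  exfalso
  obtain ⟨v', hv', h1⟩ := exists_diff hfix hnf (Pi.single (Sum.inl j) 1)
  have h2 := congrArg (comp j) h1
  rw [comp_sub, comp_sub, comp_of_mem_ne (Ne.symm hij) ((hj _).1 (single_mem j)),
    comp_of_mem_ne hkj ((hk _).1 hv'), comp_of_mem_ne (Ne.symm hij) hv', comp_of_mem (single_mem j),
    sub_zero, sub_zero] at h2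
  exact single_ne j h2.symm

theorem comp_av {y : symplecticGroup (Fin m) F}
    (hpres : ∀ (i : Fin m) (v : Fin m ⊕ Fin m → F), v ∈ Dp m F i ↔ av y v ∈ Dp m F i) (i : Fin m)
    (v : Fin m ⊕ Fin m → F) : comp i (av y v) = av y (comp i v) := by
  have h1 : ∀ x : Fin m ⊕ Fin m → F, comp i x = compL i x := fun _ => rfl
  have h2 : av y v = ∑ j, av y (comp j v) := by
    conv_lhs => rw [← sum_comp v]
    exact map_sum (rep m F y) _ _
  rw [h2, h1, map_sum, Finset.sum_eq_single i]
  · exact comp_of_mem ((hpres i _).1 (comp_mem i v))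
  · intro j _ hj
    exact comp_of_mem_ne hj ((hpres j _).1 (comp_mem j v))
  · intro h; exact absurd (Finset.mem_univ i) h

/-- the support of `y` is one of the planes -/
theorem rot_supp (h3 : (3 : F) ≠ 0) {y : symplecticGroup (Fin m) F} {u w : Fin m ⊕ Fin m → F}
    (hy : y ^ 3 = 1) (hfix : ∀ v, av y v = v ↔ sympForm m F v u = 0 ∧ sympForm m F v w = 0)
    (huw : sympForm m F u w ≠ 0)
    (hpres : ∀ (i : Fin m) (v : Fin m ⊕ Fin m → F), v ∈ Dp m F i ↔ av y v ∈ Dp m F i) :
    ∃ i, u ∈ Dp m F i ∧ w ∈ Dp m F i := by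
  obtain ⟨i, v1, hv1, hyv1⟩ : ∃ i, ∃ v ∈ Dp m F i, av y v ≠ v := by
    by_contra hcon
    push Not at hcon
    have h1 : av y w = w := by
      apply eq_of_comp
      intro i
      rw [comp_av hpres]
      exact hcon i _ (comp_mem i w)
    have h2 := ((hfix w).1 h1).1
    rw [sympForm_swap, neg_eq_zero] at h2
    exact huw h2
  have hnf : ∀ v ∈ Dp m F i, av y v = v → v = 0 := by
    intro x hx hyx
    by_contra hx0
    obtain ⟨e, he, hxe⟩ : ∃ e ∈ Dp m F i, sympForm m F x e ≠ 0 := by
      by_contra hcon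
      push Not at hcon
      have e1 := hcon _ (single_mem i)
      have e2 := hcon _ (single_mem' i)
      rw [form_Dp hx] at e1 e2
      simp at e1 e2
      apply hx0
      ext k
      rcases k with k | k
      · by_cases hk : k = i
        · subst hk; exact e2
        · exact (hx k hk).1
      · by_cases hk : k = i
        · subst hk; exact e1
        · exact (hx k hk).2
    set d := av y v1 - v1 with hd
    have hdD : d ∈ Dp m F i := (Dp m F i).sub_mem ((hpres i _).1 hv1) hv1
    have hdx : sympForm m F d x = 0 := by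
      rw [hd, sympForm_sub_left]
      nth_rewrite 1 [← hyx]
      rw [av_form, sub_self]
    have h1 := plucker hdD hx he
    rw [hdx, zero_smul, sub_zero] at h1
    have h2 : av y d = d := by
      have h4 := congrArg (av y) h1
      rw [av_smul, av_smul, hyx, ← h1] at h4
      exact smul_right_injective _ hxe h4
    have h5 : av y v1 = v1 + d := by rw [hd]; abel
    have h6 : av y (av y (av y v1)) = v1 := by
      rw [← av_mul, ← av_mul]
      have h2 : y * (y * y) = 1 := by rw [← hy, pow_succ, sq, mul_assoc]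
      rw [mul_assoc, h2, av_one]
    rw [h5, av_add, h5, h2, av_add, av_add, h5, h2] at h6
    have h7 : (3 : F) • d = 0 := by
      have h8 : (3 : F) • d = (v1 + d + d + d) - v1 := by module
      rw [h8, h6, sub_self]
    rcases smul_eq_zero.1 h7 with h8 | h8
    · exact h3 h8
    · rw [h8, add_zero] at h5
      exact hyv1 h5
  have hall : ∀ j, j ≠ i → ∀ v ∈ Dp m F j, av y v = v := by
    intro j hj v hv
    obtain ⟨v', hv', h1⟩ := exists_diff hfix hnf v
    have h2 := congrArg (comp j) h1
    rwa [comp_sub, comp_sub, comp_of_mem ((hpres j v).1 hv), comp_of_mem hv,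
      comp_of_mem_ne hj.symm hv', comp_of_mem_ne hj.symm ((hpres i _).1 hv'), sub_zero, sub_zero] at h2
  refine ⟨i, ?_, ?_⟩
  · intro j hj
    have e1 := ((hfix _).1 (hall j hj _ (single_mem j))).1
    have e2 := ((hfix _).1 (hall j hj _ (single_mem' j))).1
    rw [sympForm_single_inl_left, neg_eq_zero] at e1
    rw [sympForm_single_inr_left] at e2
    exact ⟨e2, e1⟩
  · intro j hj
    have e1 := ((hfix _).1 (hall j hj _ (single_mem j))).2
    have e2 := ((hfix _).1 (hall j hj _ (single_mem' j))).2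
    rw [sympForm_single_inl_left, neg_eq_zero] at e1
    rw [sympForm_single_inr_left] at e2
    exact ⟨e2, e1⟩

end Cfsg.Agent.H574.RV
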