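import Cfsg.Agent.H574.RV.Quat
import Cfsg.Agent.H574.RV.SpRot
import Cfsg.Agent.S0246
import Cfsg.Agent.ClassicalGeometry.SympAutOddA
import Cfsg.Agent.ClassicalGeometry.SympAutExists

/-!
# `DB` fails for `PSp_{2m}(q)`, `m ≥ 2`, `p ≥ 5`, `2, 3 ∈ π`, `p ∉ π`
-/

set_option autoImplicit false

open Matrix Cfsg

namespace Cfsg.Agent.H574.RV

open Cfsg.Agent.ClassicalGeometry.SympBasic Cfsg.Agent.ClassicalGeometry.SympAutSemi
open Cfsg.Agent.H988.CPi Cfsg.Agent.H571.RV

variable {m : ℕ} {F : Type*} [Field F]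

/-- the supports of the two rotations lie in a common plane -/
theorem sp_supp (p : ℕ) [Fact p.Prime] [CharP F p] (h5 : 5 ≤ p)
    (H : Subgroup (symplecticGroup (Fin m) F)) [Finite H] (hH : ¬ p ∣ Nat.card H)
    {t t' : SpecialLinearGroup (Fin 2) F}
    (ht : (t : Matrix (Fin 2) (Fin 2) F) * (t : Matrix (Fin 2) (Fin 2) F) - t + 1 = 0)
    (ht' : (t' : Matrix (Fin 2) (Fin 2) F) * (t' : Matrix (Fin 2) (Fin 2) F) - t' + 1 = 0)
    (htH : ∀ i, phi m F i t ∈ H) (htH' : ∀ i, phi m F i t' ∈ H)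
    (hirr : ∀ a b : F, a * (t 1 0 * a + t 1 1 * b) - b * (t 0 0 * a + t 0 1 * b) = 0 →
      a * (t' 1 0 * a + t' 1 1 * b) - b * (t' 0 0 * a + t' 0 1 * b) = 0 → a = 0 ∧ b = 0)
    {y : symplecticGroup (Fin m) F} (hyH : y ∈ H) (hy : y ^ 3 = 1) {u w : Fin m ⊕ Fin m → F}
    (hfix : ∀ v, av y v = v ↔ sympForm m F v u = 0 ∧ sympForm m F v w = 0)
    (huw : sympForm m F u w ≠ 0) : ∃ i, u ∈ Dp m F i ∧ w ∈ Dp m F i := by
  have h3 : (3 : F) ≠ 0 := by
    intro h0
    have h1 : ((3 : ℕ) : F) = 0 := by exact_mod_cast h0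
    rw [CharP.cast_eq_zero_iff F p] at h1
    have := Nat.le_of_dvd (by norm_num) h1
    omega
  exact rot_supp h3 hy hfix huw (rot_pres hy hfix
    (frame p h5 H hH ht ht' htH htH' hirr hyH) (frame p h5 H hH ht ht' htH htH' hirr (inv_mem hyH)))

/-- the fixed space of a rotation -/
theorem rot_fixed (h3 : (3 : F) ≠ 0) {u w : Fin m ⊕ Fin m → F} (h : sympForm m F u w = 1)
    (v : Fin m ⊕ Fin m → F) : av (rot h) v = v ↔ sympForm m F v u = 0 ∧ sympForm m F v w = 0 := by
  have h' : sympForm m F w u = -1 := by rw [sympForm_swap, h]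
  rw [av_rot]
  constructor
  · intro hv
    have h1 : sympForm m F v w • (w - u) + sympForm m F v u • (u + (2 : F) • w) = 0 := by
      have : v + sympForm m F v w • (w - u) + sympForm m F v u • (u + (2 : F) • w) - v = 0 := by
        rw [hv, sub_self]
      rw [← this]; abel
    have e1 := congrArg (fun x => sympForm m F x u) h1
    have e2 := congrArg (fun x => sympForm m F x w) h1
    simp only [sympForm_add_left, sympForm_smul_left, sympForm_sub_left, sympForm_self, h, h',
      sympForm_zero_left] at e1 e2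
    have f1 : (3 : F) * sympForm m F v u = 0 := by linear_combination e2 - e1
    have f2 := (mul_eq_zero.1 f1).resolve_left h3
    refine ⟨f2, ?_⟩
    rw [f2] at e2
    linear_combination -e2
  · rintro ⟨h1, h2⟩
    rw [h1, h2]; simp

/-- `DB` fails for `PSp_{2m}(q)`. -/
theorem not_DB_PSp [Finite F] (hm : 2 ≤ m) (p : ℕ) [hp : Fact p.Prime] [CharP F p] (h5 : 5 ≤ p) {π : Set ℕ}
    (p2 : 2 ∈ π) (p3 : 3 ∈ π) (hpπ : p ∉ π) : ¬ DB π (PSp m F) := by
  intro hDB
  have := Fintype.ofFinite F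
  have hne : ∀ k : ℕ, k ≠ 0 → k < 5 → ((k : ℕ) : F) ≠ 0 := by
    intro k hk0 hk h1
    rw [CharP.cast_eq_zero_iff F p] at h1
    have := Nat.le_of_dvd (Nat.pos_of_ne_zero hk0) h1
    omega
  have h20 : (2 : F) ≠ 0 := by exact_mod_cast hne 2 (by norm_num) (by norm_num)
  have h30 : (3 : F) ≠ 0 := by exact_mod_cast hne 3 (by norm_num) (by norm_num)
  obtain ⟨K, t, t', hK, htK, htK', ht, ht', hirr⟩ := exists_quat (F := F) h20 p2 p3
  -- the first `π`-subgroup
  let f : (Fin m → K) →* symplecticGroup (Fin m) F :=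
    (Phi m F).comp (MonoidHom.compLeft K.subtype (Fin m))
  have hY1 : PiN π (Nat.card f.range) := by
    have h1 : PiN π (Nat.card (Fin m → K)) := by
      rw [Nat.card_fun, Nat.card_fin]
      intro q hq hd
      exact hK q hq (hq.dvd_of_dvd_pow hd)
    exact h1.of_dvd (Subgroup.card_range_dvd f)
  have hmem : ∀ s ∈ K, ∀ i, phi m F i s ∈ f.range := by
    intro s hs i
    refine ⟨Pi.mulSingle i ⟨s, hs⟩, ?_⟩
    change Phi m F _ = Phi m F _
    congr 1
    funext j
    by_cases hj : j = i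
    · subst hj
      simp
    · simp [hj]
  -- the second `π`-subgroup
  let i0 : Fin m := ⟨0, by omega⟩
  let i1 : Fin m := ⟨1, by omega⟩
  have hi : i1 ≠ i0 := by
    intro h
    have := congrArg Fin.val h
    simp [i0, i1] at this
  set e0 : Fin m ⊕ Fin m → F := Pi.single (Sum.inr i0) 1 with he0
  set f0 : Fin m ⊕ Fin m → F := Pi.single (Sum.inl i0) 1 with hf0
  set e1 : Fin m ⊕ Fin m → F := Pi.single (Sum.inr i1) 1 with he1
  set f1 : Fin m ⊕ Fin m → F := Pi.single (Sum.inl i1) 1 with hf1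
  have q1 : sympForm m F e0 f0 = 1 := by rw [he0, sympForm_single_inr_left, hf0]; simp
  have q2 : sympForm m F e1 f1 = 1 := by rw [he1, sympForm_single_inr_left, hf1]; simp
  have q3 : sympForm m F e0 e1 = 0 := by rw [he0, sympForm_single_inr_left, he1]; simp
  have q4 : sympForm m F e0 f1 = 0 := by rw [he0, sympForm_single_inr_left, hf1]; simp [hi.symm]
  have q5 : sympForm m F f0 e1 = 0 := by rw [hf0, sympForm_single_inl_left, he1]; simp [hi.symm]
  have q6 : sympForm m F f0 f1 = 0 := by rw [hf0, sympForm_single_inl_left, hf1]; simp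
  have q1' : sympForm m F f0 e0 = -1 := by rw [sympForm_swap, q1]
  have q2' : sympForm m F f1 e1 = -1 := by rw [sympForm_swap, q2]
  have q3' : sympForm m F e1 e0 = 0 := by rw [sympForm_swap, q3, neg_zero]
  have q4' : sympForm m F f1 e0 = 0 := by rw [sympForm_swap, q4, neg_zero]
  have q5' : sympForm m F e1 f0 = 0 := by rw [sympForm_swap, q5, neg_zero]
  have q6' : sympForm m F f1 f0 = 0 := by rw [sympForm_swap, q6, neg_zero]
  set c : F := 3⁻¹ with hc
  have hc3 : 3 * c = 1 := mul_inv_cancel₀ h30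
  set u : Fin m ⊕ Fin m → F := (2 * c) • e0 + c • f0 + e1 with hu
  set w : Fin m ⊕ Fin m → F := (-c) • e0 + c • f0 + (2 * c) • f1 with hw
  have quw : sympForm m F u w = 1 := by
    simp only [hu, hw, sympForm_add_left, sympForm_add_right, sympForm_smul_left, sympForm_smul_right,
      sympForm_self, q1, q2, q4, q6, q1', q3', q5']
    linear_combination (c + 1) * hc3
  have r1 : 3 * sympForm m F e0 u = 1 := by
    simp only [hu, sympForm_add_right, sympForm_smul_right, sympForm_self, q1, q3]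
    linear_combination hc3
  have r2 : 3 * sympForm m F e0 w = 1 := by
    simp only [hw, sympForm_add_right, sympForm_smul_right, sympForm_self, q1, q4]
    linear_combination hc3
  have r3 : 3 * sympForm m F f0 u = -2 := by
    simp only [hu, sympForm_add_right, sympForm_smul_right, sympForm_self, q1', q5]
    linear_combination -2 * hc3
  have r4 : 3 * sympForm m F f0 w = 1 := by
    simp only [hw, sympForm_add_right, sympForm_smul_right, sympForm_self, q1', q6]
    linear_combination hc3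
  have hbr := rot_braid h30 q1 quw r1 r2 r3 r4
  have hY2 : PiN π (Nat.card (Subgroup.closure {rot q1, rot quw} : Subgroup (symplecticGroup (Fin m) F))) :=
    piN_braid p2 p3 (rot_cube q1) hbr
  -- Hall subgroups
  let mk : symplecticGroup (Fin m) F →* PSp m F := QuotientGroup.mk' (Subgroup.center (symplecticGroup (Fin m) F))
  obtain ⟨H1, hH1, hYH1⟩ := hDB.dom (f.range.map mk) (hY1.of_dvd (Subgroup.card_map_dvd _ _))
  obtain ⟨H2, hH2, hYH2⟩ := hDB.dom ((Subgroup.closure {rot q1, rot quw}).map mk)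
    (hY2.of_dvd (Subgroup.card_map_dvd _ _))
  obtain ⟨𝒜, -, htr, -⟩ := hDB.out
  obtain ⟨α, -, hα⟩ := htr H1 H2 hH1 hH2
  obtain ⟨g, rfl⟩ : ∃ g, Psi m F g = α :=
    Cfsg.Agent.ClassicalGeometry.SympAutExists.exists_semi hm α
      (Cfsg.Agent.ClassicalGeometry.SympAutOddA.recog hm (Or.inr h20) α)
  obtain ⟨φ, l, hl, hg⟩ := g.2
  have hginv := hg.inv hl
  have hHp : ¬ p ∣ Nat.card (H1.comap mk) := by
    have h1 : Nat.card (H1.comap mk) = Nat.card (Subgroup.center (symplecticGroup (Fin m) F)) * Nat.card H1 :=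
      H571.DExt.card_comap_mk _ H1
    rw [h1]
    intro hd
    rcases hp.out.dvd_mul.1 hd with h | h
    · rw [Cfsg.Agent.S0246.result rfl m (by omega)] at h
      have h2 := Nat.le_of_dvd (by norm_num) (h.trans (Nat.gcd_dvd_left _ _))
      omega
    · exact hpπ (hH1.1 p hp.out h)
  have htH : ∀ s ∈ K, ∀ i, phi m F i s ∈ H1.comap mk := fun s hs i =>
    hYH1 (Subgroup.mem_map_of_mem mk (hmem s hs i))
  have hform0 : ∀ a b, sympForm m F a b = 0 ↔ sympForm m F (g.1⁻¹ a) (g.1⁻¹ b) = 0 := by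
    intro a b
    rw [hginv.2.2]
    have h1 : φ.symm l⁻¹ ≠ 0 := by simpa using hl
    rw [mul_eq_zero, or_iff_right h1, map_eq_zero_iff _ φ.symm.injective]
  have key : ∀ y ∈ Subgroup.closure {rot q1, rot quw}, y ^ 3 = 1 → ∀ a b : Fin m ⊕ Fin m → F,
      (∀ v, av y v = v ↔ sympForm m F v a = 0 ∧ sympForm m F v b = 0) → sympForm m F a b ≠ 0 →
      ∃ i, g.1⁻¹ a ∈ Dp m F i ∧ g.1⁻¹ b ∈ Dp m F i := by
    intro y hy hy3 a b hfix hab
    set y' := (conjHom m F g).symm y with hy'
    have e1 : conjHom m F g y' = y := MulEquiv.apply_symm_apply _ _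
    have hyv : ∀ v, av y v = g.1 (av y' (g.1⁻¹ v)) := by
      intro v
      have h1 := rho_conjHom g y'
      rw [e1] at h1
      exact DFunLike.congr_fun h1 v
    have hmem' : y' ∈ H1.comap mk := by
      have h1 : mk y ∈ H2 := hYH2 (Subgroup.mem_map_of_mem mk hy)
      rw [hα] at h1
      obtain ⟨x, hx, hxy⟩ := h1
      have h2 : Psi m F g (mk y') = mk y := by
        have h3 : Psi m F g (mk y') = mk (conjHom m F g y') := Psi_mk g y'
        rw [h3, e1]
      have h3 : x = mk y' := by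
        apply (Psi m F g).injective
        rw [h2]; exact hxy
      change mk y' ∈ H1
      rw [← h3]; exact hx
    refine sp_supp p h5 (H1.comap mk) hHp ht ht' (htH t htK) (htH t' htK') hirr hmem' ?_ ?_ ?_
    · rw [hy', ← map_pow, hy3, map_one]
    · intro v
      have h1 := hfix (g.1 v)
      rw [hyv, perm_inv_apply_self] at h1
      rw [hform0 _ a, hform0 _ b, perm_inv_apply_self] at h1
      rw [← h1]
      exact g.1.injective.eq_iff.symm
    · intro h1
      exact hab ((hform0 _ _).2 h1)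
  obtain ⟨i, hie, hif⟩ := key (rot q1) (Subgroup.subset_closure (Set.mem_insert _ _)) (rot_cube q1) e0 f0
    (rot_fixed h30 q1) (by rw [q1]; exact one_ne_zero)
  obtain ⟨j, hju, hjw⟩ := key (rot quw) (Subgroup.subset_closure (Set.mem_insert_of_mem _ rfl)) (rot_cube quw) u w
    (rot_fixed h30 quw) (by rw [quw]; exact one_ne_zero)
  have hij : i = j := by
    by_contra hij
    have h1 := (hform0 _ _).2 (form_ne hij hie hju)
    rw [h1, mul_zero] at r1
    exact zero_ne_one r1
  subst hij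
  have hx : g.1⁻¹ e1 ∈ Dp m F i := by
    have h1 : e1 = u + ((-(2 * c)) • e0 + (-c) • f0) := by rw [hu]; module
    rw [h1, hginv.1 u, hginv.1 ((-(2 * c)) • e0), hginv.2.1, hginv.2.1]
    exact (Dp m F i).add_mem hju ((Dp m F i).add_mem ((Dp m F i).smul_mem _ hie) ((Dp m F i).smul_mem _ hif))
  have h1 := plucker hx hie hif
  rw [(hform0 _ _).1 q3', (hform0 _ _).1 q5', zero_smul, zero_smul, sub_zero] at h1
  have h2 : g.1⁻¹ e1 = 0 := by
    rcases smul_eq_zero.1 h1 with h3 | h3
    · exfalso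
      have h4 := (hform0 _ _).2 h3
      rw [q1] at h4
      exact one_ne_zero h4
    · exact h3
  have h3 := (hform0 e1 f1).2 (by rw [h2, sympForm_zero_left])
  rw [q2] at h3
  exact one_ne_zero h3

end Cfsg.Agent.H574.RV
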